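import Cfsg.Agent.H691.T3.NT

/-!
# `NF3` for the families of Lie type (helper691)
-/

set_option autoImplicit false

namespace Cfsg.Agent.H691.T3.Fam

open Cfsg.Agent.H691.Arith Cfsg.Agent.H691.Fam

theorem le_of_cube {a b : ℕ} (h : a ^ 3 ≤ b ^ 3) : a ≤ b := by
  by_contra hcon
  have : (b + 1) ^ 3 ≤ a ^ 3 := Nat.pow_le_pow_left (by omega) 3
  nlinarith

/-- the generic criterion -/
theorem genT1 {r0 f N ord out : ℕ} {Lp Lm : ℕ → Prop} (hr0 : r0.Prime) (hf : 1 ≤ f) (hN : 6 ≤ N)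
    (h6 : ¬ (r0 = 2 ∧ N * f = 6)) (hpd : PD (r0 ^ f) f Lp Lm (ord * out))
    (hp : ∀ c, Lp c → ¬ N ∣ c) (hm : ∀ c, Lm c → ¬ (N ∣ 2 * c ∧ ¬ N ∣ c)) (hpos : 0 < out)
    (hout : out ^ 3 ≤ (r0 ^ f) ^ N) : NF3 ((r0 ^ f) ^ N) ord out := by
  have hNf : N ≤ N * f := Nat.le_mul_of_pos_right _ hf
  have hpw : (r0 ^ f) ^ N = r0 ^ (N * f) := by rw [← pow_mul, mul_comm]
  have hZ : Zd r0 (N * f) (ord * out) := zd_of_pd hr0.one_le hf (by omega) (by omega) hpd hp hm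
  have h64 : 64 ≤ r0 ^ (N * f) := by
    calc 64 = 2 ^ 6 := by norm_num
      _ ≤ r0 ^ 6 := Nat.pow_le_pow_left hr0.two_le 6
      _ ≤ r0 ^ (N * f) := Nat.pow_le_pow_right hr0.pos (by omega)
  rw [hpw] at hout ⊢
  refine nf3_of hr0 (by omega) (by omega) ?_ ?_
  · intro F hMF hF h3 _ _ h1
    refine pzd1 hr0 (by omega) h6 hZ hpos hMF (le_of_cube ?_) h1
    rwa [← pow_mul, mul_comm F 3, ← hMF]
  · refine nzd hr0 (by omega) h6 hZ hpos ?_
    by_contra hcon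
    have h1 : (r0 ^ (N * f)) ^ 3 ≤ out ^ 3 := Nat.pow_le_pow_left (by omega) 3
    have h2 : (r0 ^ (N * f)) ^ 3 ≤ r0 ^ (N * f) := h1.trans hout
    have h3 : (r0 ^ (N * f)) ^ 3 = r0 ^ (N * f) * (r0 ^ (N * f)) ^ 2 := by ring
    nlinarith

/-- the criterion for even `N` -/
theorem genSq {r0 f N K ord out : ℕ} {Lp Lm : ℕ → Prop} (hr0 : r0.Prime) (hf : 1 ≤ f) (hN : 4 ≤ N)
    (hN2 : 2 ∣ N) (h16 : (r0 ^ f) ^ N ≠ 16) (hF2 : ∀ F, N * f = 3 * F → 2 ∣ F ∧ f ≤ 2 * F)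
    (hpd : PD (r0 ^ f) f Lp Lm (ord * out)) (hK : ∀ c, 2 * N ∣ 3 * c ↔ K ∣ c)
    (hp : ∀ c, Lp c → ¬ K ∣ c) (hm : ∀ c, Lm c → ¬ (K ∣ 2 * c ∧ ¬ K ∣ c)) (hpos : 0 < out)
    (hout : out ^ 3 ≤ ((r0 ^ f) ^ N) ^ 2) : NF3 ((r0 ^ f) ^ N) ord out := by
  have hNf : N ≤ N * f := Nat.le_mul_of_pos_right _ hf
  have hpw : (r0 ^ f) ^ N = r0 ^ (N * f) := by rw [← pow_mul, mul_comm]
  rw [hpw] at hout h16 ⊢
  refine nf3_of hr0 (by omega) h16 ?_ ?_
  · intro F hMF hF h3 _ h2 _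
    obtain ⟨h21, h22⟩ := hF2 F hMF
    have key : ∀ c, 2 * F ∣ f * c ↔ K ∣ c := by
      intro c
      rw [← hK, ← Nat.mul_dvd_mul_iff_left (show 0 < 3 by norm_num), ← mul_assoc 3 2 F,
        show 3 * 2 * F = f * (2 * N) by linarith, show 3 * (f * c) = f * (3 * c) by ring,
        Nat.mul_dvd_mul_iff_left (show 0 < f by omega)]
    refine pzd2 hr0 (by omega) (by omega) (zd_of_pd' hr0.one_le h22 (by omega) hpd (fun c => (key c).1)
      (fun c => (key c).2) hp hm) hpos (le_of_cube ?_) h2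
    rw [hMF] at hout
    calc out ^ 3 ≤ (r0 ^ (3 * F)) ^ 2 := hout
      _ = ((r0 ^ F) ^ 2) ^ 3 := by ring
  · intro p F _ _ h3 _ h _
    obtain ⟨t, ht⟩ := hN2
    refine nsq (t := r0 ^ (t * f)) (q := p ^ F) (by omega) ?_
    rw [← h, ← pow_mul, ht]
    congr 1
    ring

theorem cube6 {r f A B N : ℕ} (hr : B ≤ r) (hA : A ^ 3 ≤ 8 * B ^ 3) (h2f : 2 * f ≤ r) (hN : 6 ≤ N) (hB : 1 ≤ B) :
    (A * f) ^ 3 ≤ r ^ N := by
  have h1 : (2 * f) ^ 3 ≤ r ^ 3 := Nat.pow_le_pow_left h2f 3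
  have h2 : (A * f) ^ 3 = A ^ 3 * f ^ 3 := by ring
  have h3 : A ^ 3 * f ^ 3 ≤ 8 * B ^ 3 * f ^ 3 := Nat.mul_le_mul_right _ hA
  have h4 : 8 * B ^ 3 * f ^ 3 = B ^ 3 * (2 * f) ^ 3 := by ring
  have h5 : B ^ 3 * (2 * f) ^ 3 ≤ r ^ 3 * r ^ 3 := Nat.mul_le_mul (Nat.pow_le_pow_left hr 3) h1
  have h6 : r ^ 3 * r ^ 3 = r ^ 6 := by ring
  have h7 : r ^ 6 ≤ r ^ N := Nat.pow_le_pow_right (by omega) hN
  omega

theorem cubeB {r f A B k N : ℕ} (hr : B ≤ r) (hA : A ^ 3 ≤ 8 * B ^ k) (h2f : 2 * f ≤ r) (hN : k + 3 ≤ N)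
    (hB : 1 ≤ B) : (A * f) ^ 3 ≤ r ^ N := by
  have h1 : (2 * f) ^ 3 ≤ r ^ 3 := Nat.pow_le_pow_left h2f 3
  have h2 : (A * f) ^ 3 = A ^ 3 * f ^ 3 := by ring
  have h3 : A ^ 3 * f ^ 3 ≤ 8 * B ^ k * f ^ 3 := Nat.mul_le_mul_right _ hA
  have h4 : 8 * B ^ k * f ^ 3 = B ^ k * (2 * f) ^ 3 := by ring
  have h5 : B ^ k * (2 * f) ^ 3 ≤ r ^ k * r ^ 3 := Nat.mul_le_mul (Nat.pow_le_pow_left hr k) h1
  have h6 : r ^ k * r ^ 3 = r ^ (k + 3) := by rw [pow_add]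
  have h7 : r ^ (k + 3) ≤ r ^ N := Nat.pow_le_pow_right (by omega) hN
  omega

/-! ### linear groups -/

theorem psl_NF3 {r0 f n ord : ℕ} (hr0 : r0.Prime) (hf : 1 ≤ f) (hn : 4 ≤ n) (h42 : ¬ (n = 4 ∧ r0 ^ f = 2))
    (hord : ord ∣ ∏ i ∈ Finset.range n, ((r0 ^ f) ^ n - (r0 ^ f) ^ i)) :
    NF3 ((r0 ^ f) ^ (n * (n - 1) / 2)) ord (2 * Nat.gcd n (r0 ^ f - 1) * f) := by
  have hr2 : 2 ≤ r0 ^ f := hr0.two_le.trans (Nat.le_self_pow (by omega) _)
  have h2f : 2 * f ≤ r0 ^ f := two_mul_le_pow hr0.two_le hf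
  have hg : Nat.gcd n (r0 ^ f - 1) ≤ r0 ^ f - 1 := Nat.le_of_dvd (by omega) (Nat.gcd_dvd_right _ _)
  have hpd : PD (r0 ^ f) f (fun c => 1 ≤ c ∧ c ≤ n) (fun _ => False) (ord * (2 * Nat.gcd n (r0 ^ f - 1) * f)) := by
    refine (pd_gl.of_dvd hord).mul ((PD.two.mul ?_).mul (PD.le_f (by omega) le_rfl))
    refine (PD.plus (c := 1) ⟨le_rfl, by omega⟩).of_dvd ?_
    rw [pow_one]
    exact Nat.gcd_dvd_right _ _
  have hg0 : 0 < Nat.gcd n (r0 ^ f - 1) := Nat.gcd_pos_of_pos_left _ (by omega)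
  obtain ⟨N, hN⟩ : ∃ N, N = n * (n - 1) / 2 := ⟨_, rfl⟩
  rw [← hN]
  have hN2 : 2 * N = n * (n - 1) := by
    rw [hN]
    exact Nat.mul_div_cancel' (by
      obtain ⟨k, rfl⟩ : ∃ k, n = k + 1 := ⟨n - 1, by omega⟩
      rw [Nat.add_sub_cancel, mul_comm]
      exact (Nat.even_mul_succ_self k).two_dvd)
  have hNn : n < N := by
    have h1 : n * 3 ≤ n * (n - 1) := Nat.mul_le_mul_left _ (by omega)
    omega
  have hN6 : 6 ≤ N := by
    have h1 : n * 3 ≤ n * (n - 1) := Nat.mul_le_mul_left _ (by omega)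
    omega
  refine genT1 hr0 hf hN6 ?_ hpd ?_ (fun _ h => h.elim) (by positivity) ?_
  · rintro ⟨h61, h62⟩
    have hf1 : f = 1 := by
      by_contra hcon
      have : N * 2 ≤ N * f := Nat.mul_le_mul_left _ (by omega)
      omega
    have hn4 : n = 4 := by
      by_contra hcon
      have h1 : n * 4 ≤ n * (n - 1) := Nat.mul_le_mul_left _ (by omega)
      rw [hf1] at h62
      omega
    exact h42 ⟨hn4, by rw [h61, hf1, pow_one]⟩
  · rintro c ⟨h1, h2⟩ h3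
    have := Nat.le_of_dvd (by omega) h3
    omega
  · have h1 : 2 * Nat.gcd n (r0 ^ f - 1) * f ≤ (r0 ^ f) ^ 2 := by
      calc 2 * Nat.gcd n (r0 ^ f - 1) * f = Nat.gcd n (r0 ^ f - 1) * (2 * f) := by ring
        _ ≤ r0 ^ f * r0 ^ f := Nat.mul_le_mul (by omega) h2f
        _ = (r0 ^ f) ^ 2 := by ring
    calc (2 * Nat.gcd n (r0 ^ f - 1) * f) ^ 3 ≤ ((r0 ^ f) ^ 2) ^ 3 := Nat.pow_le_pow_left h1 3
      _ = (r0 ^ f) ^ 6 := by ring
      _ ≤ (r0 ^ f) ^ N := Nat.pow_le_pow_right (by omega) hN6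

/-! ### symplectic groups and odd dimensional orthogonal groups -/

theorem psp_NF3 {r0 f m ord : ℕ} (hr0 : r0.Prime) (hf : 1 ≤ f) (hm : 2 ≤ m) (hm3 : m = 2 → 3 ≤ r0 ^ f)
    (hord : ord ∣ (r0 ^ f) ^ (m ^ 2) * ∏ i ∈ Finset.range m, ((r0 ^ f) ^ (2 * (i + 1)) - 1)) :
    NF3 ((r0 ^ f) ^ (m ^ 2)) ord (4 * f) := by
  have hr2 : 2 ≤ r0 ^ f := hr0.two_le.trans (Nat.le_self_pow (by omega) _)
  have h2f : 2 * f ≤ r0 ^ f := two_mul_le_pow hr0.two_le hf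
  have hpd : PD (r0 ^ f) f (fun c => 1 ≤ c ∧ c ≤ 2 * m) (fun _ => False) (ord * (4 * f)) :=
    (((PD.base.pow _).mul pd_prB).of_dvd hord).mul (PD.c4.mul (PD.le_f (by omega) le_rfl))
  rcases hm.eq_or_lt with rfl | hm
  · refine genSq (N := 2 ^ 2) (K := 8) hr0 hf (by norm_num) (by norm_num) ?_ (fun F h => ?_) hpd (fun c => by omega) ?_
      (fun _ h => h.elim) (by omega) ?_
    · intro h16
      have : 3 ^ 2 ^ 2 ≤ (r0 ^ f) ^ 2 ^ 2 := Nat.pow_le_pow_left (hm3 rfl) _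
      rw [h16] at this
      norm_num at this
    · omega
    · rintro c ⟨h1, h2⟩ h3
      have := Nat.le_of_dvd (by omega) h3
      omega
    · rw [← pow_mul]
      exact cubeB (B := 2) (k := 3) hr2 (by norm_num) h2f (by norm_num) (by norm_num)
  · have hm9 : 9 ≤ m ^ 2 := by nlinarith
    refine genT1 hr0 hf (by omega) ?_ hpd ?_ (fun _ h => h.elim) (by omega) ?_
    · rintro ⟨-, h⟩
      have : m ^ 2 ≤ m ^ 2 * f := Nat.le_mul_of_pos_right _ hf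
      omega
    · rintro c ⟨h1, h2⟩ h3
      have := Nat.le_of_dvd (by omega) h3
      nlinarith
    · exact cubeB (B := 2) (k := 3) hr2 (by norm_num) h2f (by omega) (by norm_num)

/-! ### even dimensional orthogonal groups -/

/-- the bound for the outer automorphism groups of orthogonal groups -/
def oc (p : ℕ) : ℕ := if p = 2 then 6 else 24

theorem oc_pos (p : ℕ) : 0 < oc p := by unfold oc; split_ifs <;> norm_num

theorem oc_dvd (p : ℕ) : oc p ∣ 24 := by unfold oc; split_ifs <;> norm_num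

theorem oc_cube {r0 f N : ℕ} (hr0 : r0.Prime) (hf : 1 ≤ f) (hN : 12 ≤ N) : (oc r0 * f) ^ 3 ≤ (r0 ^ f) ^ N := by
  have hr2 : 2 ≤ r0 ^ f := hr0.two_le.trans (Nat.le_self_pow (by omega) _)
  have h2f : 2 * f ≤ r0 ^ f := two_mul_le_pow hr0.two_le hf
  unfold oc
  split_ifs with h
  · exact cubeB (B := 2) (k := 9) hr2 (by norm_num) h2f (by omega) (by norm_num)
  · have h3 : 3 ≤ r0 := by
      have := hr0.two_le
      omega
    have hr3 : 3 ≤ r0 ^ f := h3.trans (Nat.le_self_pow (by omega) _)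
    exact cubeB (B := 3) (k := 9) hr3 (by norm_num) h2f (by omega) (by norm_num)

theorem oplus_NF3 {r0 f m ord : ℕ} (hr0 : r0.Prime) (hf : 1 ≤ f) (hm : 4 ≤ m)
    (hord : ord ∣ (r0 ^ f) ^ (m * (m - 1)) * (((r0 ^ f) ^ m - 1) *
      ∏ i ∈ Finset.range (m - 1), ((r0 ^ f) ^ (2 * (i + 1)) - 1))) :
    NF3 ((r0 ^ f) ^ (m * (m - 1))) ord (oc r0 * f) := by
  have hm4 : 3 * m ≤ m * (m - 1) := by
    rw [mul_comm 3]
    exact Nat.mul_le_mul_left _ (by omega)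
  have hpd : PD (r0 ^ f) f (fun c => 1 ≤ c ∧ c ≤ 2 * m) (fun _ => False) (ord * (oc r0 * f)) := by
    refine (((PD.base.pow _).mul ((PD.plus ⟨by omega, by omega⟩).mul ?_)).of_dvd hord).mul
      ((PD.c24.of_dvd (oc_dvd r0)).mul (PD.le_f (by omega) le_rfl))
    apply PD.prod
    intro i hi
    rw [Finset.mem_range] at hi
    exact PD.plus ⟨by omega, by omega⟩
  refine genT1 hr0 hf (by omega) ?_ hpd ?_ (fun _ h => h.elim) (Nat.mul_pos (oc_pos _) (by omega))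
    (oc_cube hr0 hf (by omega))
  · rintro ⟨-, h⟩
    have : m * (m - 1) ≤ m * (m - 1) * f := Nat.le_mul_of_pos_right _ hf
    omega
  · rintro c ⟨h1, h2⟩ h3
    have := Nat.le_of_dvd (by omega) h3
    omega

theorem ominus_NF3 {r0 f m ord : ℕ} (hr0 : r0.Prime) (hf : 1 ≤ f) (hm : 4 ≤ m)
    (hord : ord ∣ (r0 ^ f) ^ (m * (m - 1)) * (((r0 ^ f) ^ m + 1) *
      ∏ i ∈ Finset.range (m - 1), ((r0 ^ f) ^ (2 * (i + 1)) - 1))) :
    NF3 ((r0 ^ f) ^ (m * (m - 1))) ord (oc r0 * f) := by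
  have hm4 : 3 * m ≤ m * (m - 1) := by
    rw [mul_comm 3]
    exact Nat.mul_le_mul_left _ (by omega)
  have hpd : PD (r0 ^ f) f (fun c => 1 ≤ c ∧ c ≤ 2 * m) (fun c => c = m) (ord * (oc r0 * f)) := by
    refine (((PD.base.pow _).mul ((PD.minus (Lm := fun c => c = m) (c := m) rfl).mul ?_)).of_dvd hord).mul
      ((PD.c24.of_dvd (oc_dvd r0)).mul (PD.le_f (x := f) (by omega) le_rfl))
    apply PD.prod
    intro i hi
    rw [Finset.mem_range] at hi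
    exact PD.plus ⟨by omega, by omega⟩
  refine genT1 hr0 hf (by omega) ?_ hpd ?_ ?_ (Nat.mul_pos (oc_pos _) (by omega))
    (oc_cube hr0 hf (by omega))
  · rintro ⟨-, h⟩
    have : m * (m - 1) ≤ m * (m - 1) * f := Nat.le_mul_of_pos_right _ hf
    omega
  · rintro c ⟨h1, h2⟩ h3
    have := Nat.le_of_dvd (by omega) h3
    omega
  · rintro c rfl ⟨h1, -⟩
    have := Nat.le_of_dvd (by omega) h1
    omega

/-! ### unitary groups -/

theorem pd_psu {r0 f n ord : ℕ} (hf : 1 ≤ f) (hn : 3 ≤ n)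
    (hord : ord ∣ (r0 ^ f) ^ (n * (n - 1) / 2) *
      ∏ i ∈ Finset.range n, if Even i then (r0 ^ f) ^ (i + 1) + 1 else (r0 ^ f) ^ (i + 1) - 1) :
    PD (r0 ^ f) f (fun c => 1 ≤ c ∧ c ≤ n ∧ Even c) (fun c => 1 ≤ c ∧ c ≤ n ∧ Odd c)
      (ord * (2 * Nat.gcd n (r0 ^ f + 1) * f)) := by
  refine (((PD.base.pow _).mul pd_prU).of_dvd hord).mul ((PD.two.mul ?_).mul (PD.le_f (by omega) le_rfl))
  refine (PD.minus (c := 1) ⟨le_rfl, by omega, odd_one⟩).of_dvd ?_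
  rw [pow_one]
  exact Nat.gcd_dvd_right _ _

/-- `PSU₃` -/
theorem psu3_NF3 {r0 f ord : ℕ} (hr0 : r0.Prime) (hf : 1 ≤ f) (h32 : r0 ^ f ≠ 2)
    (hc : Nat.gcd 3 (r0 ^ f + 1) * (r0 ^ f + 1) * ord = (r0 ^ f) ^ (3 * (3 - 1) / 2) *
      ∏ i ∈ Finset.range 3, if Even i then (r0 ^ f) ^ (i + 1) + 1 else (r0 ^ f) ^ (i + 1) - 1) :
    NF3 ((r0 ^ f) ^ (3 * (3 - 1) / 2)) ord (2 * Nat.gcd 3 (r0 ^ f + 1) * f) := by
  have hr2 : 2 ≤ r0 ^ f := hr0.two_le.trans (Nat.le_self_pow (by omega) _)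
  have h2f : 2 * f ≤ r0 ^ f := two_mul_le_pow hr0.two_le hf
  have hpd := pd_psu (r0 := r0) (f := f) (n := 3) (ord := ord) hf le_rfl (by rw [← hc]; exact Dvd.intro_left _ rfl)
  have hg : Nat.gcd 3 (r0 ^ f + 1) ≤ r0 ^ f + 1 := Nat.le_of_dvd (by omega) (Nat.gcd_dvd_right _ _)
  have hg0 : 0 < Nat.gcd 3 (r0 ^ f + 1) := Nat.gcd_pos_of_pos_left _ (by omega)
  have hf2 : r0 = 2 → 2 ≤ f := by
    rintro rfl
    by_contra hcon
    have : f = 1 := by omega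
    rw [this, pow_one] at h32
    exact h32 rfl
  have hpw : (r0 ^ f) ^ (3 * (3 - 1) / 2) = r0 ^ (3 * f) := by
    rw [show 3 * (3 - 1) / 2 = 3 by norm_num, ← pow_mul, mul_comm]
  have hb := psu_bound (r := r0 ^ f) (n := 3) hr2 le_rfl (fun h => h32 h.2)
  rw [hpw] at hc hb ⊢
  have h16 : r0 ^ (3 * f) ≠ 16 := by
    intro h
    have h1 : r0 ∣ 16 := by rw [← h]; exact dvd_pow_self _ (by omega)
    have h2 : r0 = 2 := (Nat.prime_dvd_prime_iff_eq hr0 Nat.prime_two).1 (hr0.dvd_of_dvd_pow (n := 4) (by norm_num; exact h1))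
    rw [h2, show (16 : ℕ) = 2 ^ 4 by norm_num] at h
    have := Nat.pow_right_injective le_rfl h
    omega
  refine nf3_of hr0 (by omega) h16 ?_ ?_
  · intro F hMF hF h3 hIM _ _
    have hFf : F = f := by omega
    subst hFf
    refine pim (K := 6 * F) hr0 (by omega) ?_ ?_ ?_ ?_ hIM
    · rintro ⟨h1, h2⟩
      have := hf2 h1
      omega
    · intro h
      have := Nat.le_of_dvd (by omega) h
      omega
    · intro h
      have := Nat.le_of_dvd (by omega) h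
      omega
    · intro l hl hlM hlp
      -- `l ∣ r ^ 3 + 1`
      have h1 : l ∣ r0 ^ (3 * F) + 1 := dvd_add_one_of_prim hl hr0.two_le (by omega) (fun k => by
        rw [hlp, show 2 * (3 * F) = 6 * F by ring])
      have h2 : l ∣ Nat.gcd 3 (r0 ^ F + 1) * (r0 ^ F + 1) * ord := by
        rw [hc]
        refine Dvd.dvd.mul_left (Dvd.dvd.trans ?_ (Finset.dvd_prod_of_mem _ (Finset.mem_range.2 (show 2 < 3 by norm_num)))) _
        rw [if_pos (by decide), ← pow_mul, mul_comm F]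
        exact h1
      have h5 : ¬ l ∣ r0 ^ F + 1 := by
        intro h5
        have h6 : l ∣ r0 ^ (F * 2) - 1 := by
          have := Nat.sq_sub_sq (r0 ^ F) 1
          rw [one_pow] at this
          rw [pow_mul, this]
          exact h5.mul_right _
        rw [hlp] at h6
        have := Nat.le_of_dvd (by omega) h6
        omega
      rcases hl.dvd_mul.1 h2 with h3 | h3
      · exfalso
        rcases hl.dvd_mul.1 h3 with h4 | h4
        · exact h5 (h4.trans (Nat.gcd_dvd_right _ _))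
        · exact h5 h4
      · exact h3
  · by_cases h2 : r0 = 2
    · intro p F _ _ _ _ h _
      exact neven (by rw [h2]; exact dvd_pow_self 2 (by omega)) h
    · refine nzd hr0 (by omega) (fun h => h2 h.1) ?_ (by positivity) ?_
      · refine zd_of_pd hr0.one_le hf (by norm_num) (by omega) hpd ?_ ?_
        · rintro c ⟨h1, h2, h4⟩ h5
          have : c = 3 := le_antisymm h2 (Nat.le_of_dvd (by omega) h5)
          rw [this] at h4
          exact absurd h4 (by decide)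
        · rintro c ⟨h1, h2, h4⟩ ⟨h5, h6⟩
          apply h6
          exact (Nat.Coprime.dvd_mul_left (by norm_num)).1 h5
      · have h1 : 2 * Nat.gcd 3 (r0 ^ f + 1) * f ≤ (r0 ^ f + 1) * r0 ^ f := by
          calc 2 * Nat.gcd 3 (r0 ^ f + 1) * f = Nat.gcd 3 (r0 ^ f + 1) * (2 * f) := by ring
            _ ≤ (r0 ^ f + 1) * r0 ^ f := Nat.mul_le_mul hg h2f
        have h2 : 2 * (r0 ^ f + 1) * r0 ^ f = 2 * ((r0 ^ f + 1) * r0 ^ f) := by ring
        omega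

/-- `PSU₄` -/
theorem psu4_NF3 {r0 f ord : ℕ} (hr0 : r0.Prime) (hf : 1 ≤ f)
    (hord : ord ∣ (r0 ^ f) ^ (4 * (4 - 1) / 2) *
      ∏ i ∈ Finset.range 4, if Even i then (r0 ^ f) ^ (i + 1) + 1 else (r0 ^ f) ^ (i + 1) - 1) :
    NF3 ((r0 ^ f) ^ (4 * (4 - 1) / 2)) ord (2 * Nat.gcd 4 (r0 ^ f + 1) * f) := by
  have hr2 : 2 ≤ r0 ^ f := hr0.two_le.trans (Nat.le_self_pow (by omega) _)
  have h2f : 2 * f ≤ r0 ^ f := two_mul_le_pow hr0.two_le hf
  have hpd := pd_psu (r0 := r0) (f := f) (n := 4) (ord := ord) hf (by norm_num) hord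
  have hg4 : Nat.gcd 4 (r0 ^ f + 1) ≤ 4 := Nat.le_of_dvd (by omega) (Nat.gcd_dvd_left _ _)
  have hg0 : 0 < Nat.gcd 4 (r0 ^ f + 1) := Nat.gcd_pos_of_pos_left _ (by omega)
  have hpw : (r0 ^ f) ^ (4 * (4 - 1) / 2) = r0 ^ (6 * f) := by
    rw [show 4 * (4 - 1) / 2 = 6 by norm_num, ← pow_mul, mul_comm]
  rw [hpw] at hord ⊢
  have h64 : 64 ≤ r0 ^ (6 * f) := by
    calc 64 = 2 ^ 6 := by norm_num
      _ ≤ r0 ^ 6 := Nat.pow_le_pow_left hr0.two_le 6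
      _ ≤ r0 ^ (6 * f) := Nat.pow_le_pow_right hr0.pos (by omega)
  refine nf3_of hr0 (by omega) (by omega) ?_ ?_
  · intro F hMF hF h3 _ _ h1
    have hFf : F = f * 2 := by omega
    rw [hFf, pow_mul] at h1
    -- the outer automorphism group
    have hout : 2 * Nat.gcd 4 (r0 ^ f + 1) * f < (r0 ^ f) ^ 2 + 1 := by
      have h5 : 2 * Nat.gcd 4 (r0 ^ f + 1) * f = Nat.gcd 4 (r0 ^ f + 1) * (2 * f) := by ring
      have h6 : Nat.gcd 4 (r0 ^ f + 1) * (2 * f) ≤ Nat.gcd 4 (r0 ^ f + 1) * r0 ^ f := Nat.mul_le_mul_left _ h2f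
      rw [h5]
      generalize r0 ^ f = r at *
      rcases Nat.lt_or_ge r 4 with h7 | h7
      · have h8 : r = 2 ∨ r = 3 := by omega
        rcases h8 with rfl | rfl
        · have : Nat.gcd 4 (2 + 1) = 1 := by decide
          rw [this] at h6 ⊢
          omega
        · have : f = 1 := by omega
          subst this
          have : Nat.gcd 4 (3 + 1) = 4 := by decide
          rw [this]
          norm_num
      · have h8 : Nat.gcd 4 (r + 1) * r ≤ 4 * r := Nat.mul_le_mul_right _ hg4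
        nlinarith
    rcases h1 with h1 | h1
    · have hn : (r0 ^ f) ^ 2 + r0 ^ f + 1 ∣ ((r0 ^ f) ^ 2) ^ 2 + (r0 ^ f) ^ 2 + 1 := by
        refine ⟨(r0 ^ f) ^ 2 - r0 ^ f + 1, ?_⟩
        have h5 : r0 ^ f ≤ (r0 ^ f) ^ 2 := by nlinarith
        generalize r0 ^ f = r at *
        zify [h5]
        ring
      by_cases hc : r0 = 2 ∧ 3 * f = 6
      · obtain ⟨rfl, hc⟩ := hc
        have hf2 : f = 2 := by omega
        subst hf2
        have h7 : ord ∣ 4 ^ 6 * (5 * 15 * 65 * 255) := by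
          refine hord.trans ?_
          decide
        have h9 : (7 : ℕ) ∣ 3 * ((4 ^ 6 * (5 * 15 * 65 * 255)) * (2 * Nat.gcd 4 (2 ^ 2 + 1) * 2)) :=
          ((show 7 ∣ ((2 ^ 2) ^ 2) ^ 2 + (2 ^ 2) ^ 2 + 1 by norm_num).trans h1).trans
            (Nat.mul_dvd_mul_left _ (Nat.mul_dvd_mul h7 dvd_rfl))
        revert h9
        decide
      · obtain ⟨l, hl, hlp, hlM⟩ := exists_prim (r := r0) (m := 3 * f) hr0.two_le (by omega) hc
        have h4 : l ∣ r0 ^ (3 * f) - 1 := (hlp _).2 dvd_rfl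
        have h5 := cube_sub (r0 ^ f) (by omega)
        rw [mul_comm, pow_mul, ← h5, Nat.add_sub_cancel] at h4
        have h7 : ¬ l ∣ r0 ^ f - 1 := by
          rw [hlp]
          intro h8
          have := Nat.le_of_dvd (by omega) h8
          omega
        have h8 : l ∣ (r0 ^ f) ^ 2 + r0 ^ f + 1 := (hl.dvd_mul.1 h4).resolve_left h7
        have hZ : Zd r0 (3 * f) (ord * (2 * Nat.gcd 4 (r0 ^ f + 1) * f)) := by
          refine zd_of_pd hr0.one_le hf (by norm_num) (by omega) hpd ?_ ?_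
          · rintro c ⟨h1, h2, h4⟩ h5
            have : c = 3 := by omega
            rw [this] at h4
            exact absurd h4 (by decide)
          · rintro c ⟨h1, h2, h4⟩ ⟨h5, h6⟩
            apply h6
            exact (Nat.Coprime.dvd_mul_left (by norm_num)).1 h5
        rcases hl.dvd_mul.1 ((h8.trans hn).trans h1) with h9 | h9
        · have := Nat.le_of_dvd (by norm_num) h9
          omega
        · exact hZ l hl hlp h9
    · have := Nat.le_of_dvd (by positivity) h1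
      omega
  · intro p F _ _ h3 _ h _
    refine nsq (t := r0 ^ (3 * f)) (q := p ^ F) (by omega) ?_
    rw [← h, ← pow_mul]
    congr 1
    ring

/-- `PSU_n`, `n ≥ 5` -/
theorem psu5_NF3 {r0 f n ord : ℕ} (hr0 : r0.Prime) (hf : 1 ≤ f) (hn : 5 ≤ n)
    (hord : ord ∣ (r0 ^ f) ^ (n * (n - 1) / 2) *
      ∏ i ∈ Finset.range n, if Even i then (r0 ^ f) ^ (i + 1) + 1 else (r0 ^ f) ^ (i + 1) - 1) :
    NF3 ((r0 ^ f) ^ (n * (n - 1) / 2)) ord (2 * Nat.gcd n (r0 ^ f + 1) * f) := by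
  have hr2 : 2 ≤ r0 ^ f := hr0.two_le.trans (Nat.le_self_pow (by omega) _)
  have h2f : 2 * f ≤ r0 ^ f := two_mul_le_pow hr0.two_le hf
  have hpd := pd_psu (r0 := r0) (f := f) (n := n) (ord := ord) hf (by omega) hord
  have hg : Nat.gcd n (r0 ^ f + 1) ≤ r0 ^ f + 1 := Nat.le_of_dvd (by omega) (Nat.gcd_dvd_right _ _)
  have hg0 : 0 < Nat.gcd n (r0 ^ f + 1) := Nat.gcd_pos_of_pos_left _ (by omega)
  have h1 : 2 * Nat.gcd n (r0 ^ f + 1) * f ≤ 2 * (r0 ^ f) ^ 2 := by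
    calc 2 * Nat.gcd n (r0 ^ f + 1) * f = Nat.gcd n (r0 ^ f + 1) * (2 * f) := by ring
      _ ≤ (r0 ^ f + 1) * r0 ^ f := Nat.mul_le_mul hg h2f
      _ ≤ 2 * (r0 ^ f) ^ 2 := by nlinarith
  have hcube : (2 * Nat.gcd n (r0 ^ f + 1) * f) ^ 3 ≤ (r0 ^ f) ^ 9 := by
    calc (2 * Nat.gcd n (r0 ^ f + 1) * f) ^ 3 ≤ (2 * (r0 ^ f) ^ 2) ^ 3 := Nat.pow_le_pow_left h1 3
      _ = 2 ^ 3 * (r0 ^ f) ^ 6 := by ring
      _ ≤ (r0 ^ f) ^ 3 * (r0 ^ f) ^ 6 := Nat.mul_le_mul_right _ (Nat.pow_le_pow_left hr2 3)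
      _ = (r0 ^ f) ^ 9 := by ring
  obtain ⟨N, hN⟩ : ∃ N, N = n * (n - 1) / 2 := ⟨_, rfl⟩
  have hN2 : 2 * N = n * (n - 1) := by
    rw [hN]
    exact Nat.mul_div_cancel' (by
      obtain ⟨k, rfl⟩ : ∃ k, n = k + 1 := ⟨n - 1, by omega⟩
      rw [Nat.add_sub_cancel, mul_comm]
      exact (Nat.even_mul_succ_self k).two_dvd)
  have hn4 : n * 4 ≤ n * (n - 1) := Nat.mul_le_mul_left _ (by omega)
  rw [← hN] at hord ⊢
  have hcN : (2 * Nat.gcd n (r0 ^ f + 1) * f) ^ 3 ≤ (r0 ^ f) ^ N :=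
    hcube.trans (Nat.pow_le_pow_right (by omega) (by omega))
  rcases hn.eq_or_lt with rfl | hn
  · have hN10 : N = 10 := by omega
    subst hN10
    refine genSq (K := 20) hr0 hf (by norm_num) (by norm_num) ?_ (fun F h => by omega) hpd (fun c => by omega) ?_ ?_
      (by positivity) ?_
    · have : 2 ^ 10 ≤ (r0 ^ f) ^ 10 := Nat.pow_le_pow_left hr2 _
      norm_num at this
      omega
    · rintro c ⟨h1, h2, h3⟩ h4
      have := Nat.le_of_dvd (by omega) h4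
      omega
    · rintro c ⟨h1, h2, h3⟩ ⟨h4, -⟩
      have := Nat.le_of_dvd (by omega) h4
      omega
    · refine hcN.trans ?_
      have : 1 ≤ (r0 ^ f) ^ 10 := Nat.one_le_pow _ _ (by omega)
      nlinarith
  · have hn5 : n * 5 ≤ n * (n - 1) := Nat.mul_le_mul_left _ (by omega)
    refine genT1 hr0 hf (by omega) ?_ hpd ?_ ?_ (by positivity) hcN
    · rintro ⟨-, h⟩
      have : N ≤ N * f := Nat.le_mul_of_pos_right _ hf
      omega
    · rintro c ⟨h1, h2, -⟩ h3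
      have := Nat.le_of_dvd (by omega) h3
      omega
    · rintro c ⟨h1, h2, -⟩ ⟨h3, -⟩
      have := Nat.le_of_dvd (by omega) h3
      omega

/-! ### exceptional groups -/

/-- exceptional families, generic case -/
theorem exc_NF3 {r0 f N ord num : ℕ} {Lp Lm : List ℕ} (hr0 : r0.Prime) (hf : 1 ≤ f) (hN : 24 ≤ N)
    (hpd : PD (r0 ^ f) f (fun c => c ∈ Lp) (fun c => c ∈ Lm) num) (hord : ord ∣ num)
    (hLp : ∀ c ∈ Lp, ¬ N ∣ c) (hLm : ∀ c ∈ Lm, ¬ N ∣ 2 * c) : NF3 ((r0 ^ f) ^ N) ord (6 * f) := by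
  have hr2 : 2 ≤ r0 ^ f := hr0.two_le.trans (Nat.le_self_pow (by omega) _)
  have h2f : 2 * f ≤ r0 ^ f := two_mul_le_pow hr0.two_le hf
  have hNf : N ≤ N * f := Nat.le_mul_of_pos_right _ hf
  exact genT1 hr0 hf (by omega) (by omega) ((hpd.of_dvd hord).mul (PD.c6.mul (PD.le_f (x := f) (by omega) le_rfl)))
    hLp (fun c hc h => hLm c hc h.1) (by omega) (cubeB (B := 2) (k := 9) hr2 (by norm_num) h2f (by omega) (by norm_num))

/-- exceptional families, `N = 6, 12` -/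
theorem exc_NF3' {r0 f N K ord num : ℕ} {Lp Lm : List ℕ} (hr0 : r0.Prime) (hf : 1 ≤ f) (hN : 6 ≤ N) (hN6 : 6 ∣ N)
    (hpd : PD (r0 ^ f) f (fun c => c ∈ Lp) (fun c => c ∈ Lm) num) (hord : ord ∣ num)
    (hK : ∀ c, 2 * N ∣ 3 * c ↔ K ∣ c)
    (hLp : ∀ c ∈ Lp, ¬ K ∣ c) (hLm : ∀ c ∈ Lm, ¬ K ∣ 2 * c) : NF3 ((r0 ^ f) ^ N) ord (6 * f) := by
  have hr2 : 2 ≤ r0 ^ f := hr0.two_le.trans (Nat.le_self_pow (by omega) _)
  have h2f : 2 * f ≤ r0 ^ f := two_mul_le_pow hr0.two_le hf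
  have hNf : N ≤ N * f := Nat.le_mul_of_pos_right _ hf
  refine genSq (K := K) hr0 hf (by omega) (by omega) ?_ (fun F h => ?_)
    ((hpd.of_dvd hord).mul (PD.c6.mul (PD.le_f (x := f) (by omega) le_rfl))) hK hLp (fun c hc h => hLm c hc h.1)
    (by omega) ?_
  · have h1 : 2 ^ 6 ≤ (r0 ^ f) ^ 6 := Nat.pow_le_pow_left hr2 6
    have h2 : (r0 ^ f) ^ 6 ≤ (r0 ^ f) ^ N := Nat.pow_le_pow_right (by omega) hN
    norm_num at h1
    omega
  · obtain ⟨k, hk⟩ := hN6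
    have h1 : F = 2 * (k * f) := by
      have : 3 * F = 3 * (2 * (k * f)) := by rw [← h, hk]; ring
      omega
    refine ⟨⟨_, h1⟩, ?_⟩
    have : f ≤ k * f := Nat.le_mul_of_pos_left _ (by omega)
    omega
  · rw [← pow_mul]
    exact cubeB (B := 2) (k := 9) hr2 (by norm_num) h2f (by omega) (by norm_num)

section

variable {r0 f ord : ℕ} (hr0 : r0.Prime) (hf : 1 ≤ f)

include hr0 hf

theorem f4_NF3 (hord : ord ∣ (r0 ^ f) ^ 24 * ((r0 ^ f) ^ 2 - 1) * ((r0 ^ f) ^ 6 - 1) * ((r0 ^ f) ^ 8 - 1) *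
    ((r0 ^ f) ^ 12 - 1)) : NF3 ((r0 ^ f) ^ 24) ord (6 * f) := by
  refine exc_NF3 (Lp := [2, 6, 8, 12]) (Lm := []) hr0 hf le_rfl ?_ hord (by decide) (by decide)
  repeat' with_reducible apply PD.mul
  · exact PD.base.pow _
  all_goals exact PD.plus (by decide)

theorem e6_NF3 (hord : ord ∣ (r0 ^ f) ^ 36 * ((r0 ^ f) ^ 2 - 1) * ((r0 ^ f) ^ 5 - 1) * ((r0 ^ f) ^ 6 - 1) *
    ((r0 ^ f) ^ 8 - 1) * ((r0 ^ f) ^ 9 - 1) * ((r0 ^ f) ^ 12 - 1)) : NF3 ((r0 ^ f) ^ 36) ord (6 * f) := by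
  refine exc_NF3 (Lp := [2, 5, 6, 8, 9, 12]) (Lm := []) hr0 hf (by norm_num) ?_ hord (by decide) (by decide)
  repeat' with_reducible apply PD.mul
  · exact PD.base.pow _
  all_goals exact PD.plus (by decide)

theorem e7_NF3 (hord : ord ∣ (r0 ^ f) ^ 63 * ((r0 ^ f) ^ 2 - 1) * ((r0 ^ f) ^ 6 - 1) * ((r0 ^ f) ^ 8 - 1) *
    ((r0 ^ f) ^ 10 - 1) * ((r0 ^ f) ^ 12 - 1) * ((r0 ^ f) ^ 14 - 1) * ((r0 ^ f) ^ 18 - 1)) :
    NF3 ((r0 ^ f) ^ 63) ord (6 * f) := by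
  refine exc_NF3 (Lp := [2, 6, 8, 10, 12, 14, 18]) (Lm := []) hr0 hf (by norm_num) ?_ hord (by decide) (by decide)
  repeat' with_reducible apply PD.mul
  · exact PD.base.pow _
  all_goals exact PD.plus (by decide)

theorem e8_NF3 (hord : ord ∣ (r0 ^ f) ^ 120 * ((r0 ^ f) ^ 2 - 1) * ((r0 ^ f) ^ 8 - 1) * ((r0 ^ f) ^ 12 - 1) *
    ((r0 ^ f) ^ 14 - 1) * ((r0 ^ f) ^ 18 - 1) * ((r0 ^ f) ^ 20 - 1) * ((r0 ^ f) ^ 24 - 1) * ((r0 ^ f) ^ 30 - 1)) :
    NF3 ((r0 ^ f) ^ 120) ord (6 * f) := by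
  refine exc_NF3 (Lp := [2, 8, 12, 14, 18, 20, 24, 30]) (Lm := []) hr0 hf (by norm_num) ?_ hord (by decide)
    (by decide)
  repeat' with_reducible apply PD.mul
  · exact PD.base.pow _
  all_goals exact PD.plus (by decide)

theorem te6_NF3 (hord : ord ∣ (r0 ^ f) ^ 36 * ((r0 ^ f) ^ 2 - 1) * ((r0 ^ f) ^ 5 + 1) * ((r0 ^ f) ^ 6 - 1) *
    ((r0 ^ f) ^ 8 - 1) * ((r0 ^ f) ^ 9 + 1) * ((r0 ^ f) ^ 12 - 1)) : NF3 ((r0 ^ f) ^ 36) ord (6 * f) := by
  refine exc_NF3 (Lp := [2, 6, 8, 12]) (Lm := [5, 9]) hr0 hf (by norm_num) ?_ hord (by decide) (by decide)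
  repeat' with_reducible apply PD.mul
  · exact PD.base.pow _
  · exact PD.plus (by decide)
  · exact PD.minus (by decide)
  · exact PD.plus (by decide)
  · exact PD.plus (by decide)
  · exact PD.minus (by decide)
  · exact PD.plus (by decide)

theorem g2_NF3 (hord : ord ∣ (r0 ^ f) ^ 6 * ((r0 ^ f) ^ 2 - 1) * ((r0 ^ f) ^ 6 - 1)) :
    NF3 ((r0 ^ f) ^ 6) ord (6 * f) := by
  refine exc_NF3' (K := 4) (Lp := [2, 6]) (Lm := []) hr0 hf le_rfl (by norm_num) ?_ hord (fun c => by omega)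
    (by decide) (by decide)
  repeat' with_reducible apply PD.mul
  · exact PD.base.pow _
  all_goals exact PD.plus (by decide)

theorem td4_NF3 (hord : ord ∣ (r0 ^ f) ^ 12 * ((r0 ^ f) ^ 2 - 1) * ((r0 ^ f) ^ 6 - 1) *
    ((r0 ^ f) ^ 8 + (r0 ^ f) ^ 4 + 1)) : NF3 ((r0 ^ f) ^ 12) ord (6 * f) := by
  have h12 : (r0 ^ f) ^ 8 + (r0 ^ f) ^ 4 + 1 ∣ (r0 ^ f) ^ 12 - 1 := by
    refine ⟨(r0 ^ f) ^ 4 - 1, ?_⟩
    have h0 : 1 ≤ r0 ^ f := Nat.one_le_pow _ _ hr0.pos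
    generalize r0 ^ f = r at h0
    have h := cube_sub (r ^ 4) (Nat.one_le_pow _ _ h0)
    rw [← pow_mul, ← pow_mul] at h
    norm_num at h
    rw [← h, Nat.add_sub_cancel, mul_comm]
  refine exc_NF3' (K := 8) (Lp := [2, 6, 12]) (Lm := []) hr0 hf (by norm_num) (by norm_num) ?_ hord
    (fun c => by omega) (by decide) (by decide)
  repeat' with_reducible apply PD.mul
  · exact PD.base.pow _
  · exact PD.plus (by decide)
  · exact PD.plus (by decide)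
  · exact (PD.plus (c := 12) (by decide)).of_dvd h12

theorem tf4_NF3 (hord : ord ∣ (r0 ^ f) ^ 12 * (r0 ^ f - 1) * ((r0 ^ f) ^ 3 + 1) * ((r0 ^ f) ^ 4 - 1) *
    ((r0 ^ f) ^ 6 + 1)) : NF3 ((r0 ^ f) ^ 12) ord (6 * f) := by
  refine exc_NF3' (K := 8) (Lp := [1, 4]) (Lm := [3, 6]) hr0 hf (by norm_num) (by norm_num) ?_ hord
    (fun c => by omega) (by decide) (by decide)
  repeat' with_reducible apply PD.mul
  · exact PD.base.pow _
  · have := PD.plus (r := r0 ^ f) (f := f) (Lp := fun c => c ∈ [1, 4]) (Lm := fun c => c ∈ [3, 6]) (c := 1)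
      (by decide)
    rwa [pow_one] at this
  · exact PD.minus (by decide)
  · exact PD.plus (by decide)
  · exact PD.minus (by decide)

end

/-! ### the Suzuki and small Ree groups -/

theorem sz_NF3 {m ord : ℕ} (hm : 1 ≤ m)
    (hc : ord = (2 ^ (2 * m + 1)) ^ 2 * (2 ^ (2 * m + 1) - 1) * ((2 ^ (2 * m + 1)) ^ 2 + 1)) :
    NF3 ((2 ^ (2 * m + 1)) ^ 2) ord (2 * m + 1) := by
  obtain ⟨f, hf⟩ : ∃ f, f = 2 * m + 1 := ⟨_, rfl⟩
  rw [← hf] at hc ⊢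
  have hf3 : 3 ≤ f := by omega
  have h2f : 2 * f ≤ 2 ^ f := two_mul_le_pow le_rfl (by omega)
  have hpw : (2 ^ f) ^ 2 = 2 ^ (2 * f) := by rw [← pow_mul, mul_comm]
  have hpd : PD (2 ^ f) f (fun c => c ∈ [1]) (fun c => c ∈ [2]) (ord * f) := by
    refine PD.mul ?_ (PD.le_f (by omega) le_rfl)
    rw [hc]
    repeat' with_reducible apply PD.mul
    · exact PD.base.pow _
    · have := PD.plus (r := 2 ^ f) (f := f) (Lp := fun c => c ∈ [1]) (Lm := fun c => c ∈ [2]) (c := 1)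
        (by decide)
      rwa [pow_one] at this
    · exact PD.minus (by decide)
  rw [hpw]
  have h64 : 64 ≤ 2 ^ (2 * f) := by
    calc 64 = 2 ^ 6 := by norm_num
      _ ≤ 2 ^ (2 * f) := Nat.pow_le_pow_right (by norm_num) (by omega)
  refine nf3_of Nat.prime_two (by omega) (by omega) ?_ ?_
  · intro F hMF hF h3 hIM _ h1
    by_cases h6 : 2 * f = 6
    · have hf3 : f = 3 := by omega
      have hF2 : F = 2 := by omega
      rw [hf3] at hc
      rw [hF2] at hIM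
      have h13 : 13 ∣ ord := by rw [hc]; decide
      have := hIM 13 (by norm_num) h13
      revert this
      decide
    · refine pzd1 Nat.prime_two (by omega) (fun h => h6 h.2) ?_ (by omega) hMF ?_ h1
      · exact zd_of_pd (by norm_num) (by omega) (by norm_num) (by omega) hpd (by decide) (by decide)
      · have := two_mul_le_pow (le_refl 2) (show 1 ≤ F by omega)
        omega
  · intro p F _ _ _ _ h _
    exact neven (dvd_pow_self 2 (by omega)) h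

theorem ree_NF3 {m ord : ℕ} (hm : 1 ≤ m)
    (hord : ord ∣ (3 ^ (2 * m + 1)) ^ 3 * (3 ^ (2 * m + 1) - 1) * ((3 ^ (2 * m + 1)) ^ 3 + 1)) :
    NF3 ((3 ^ (2 * m + 1)) ^ 3) ord (2 * m + 1) := by
  obtain ⟨f, hf⟩ : ∃ f, f = 2 * m + 1 := ⟨_, rfl⟩
  rw [← hf] at hord ⊢
  have hf3 : 3 ≤ f := by omega
  have h2f : 2 * f ≤ 3 ^ f := two_mul_le_pow (by norm_num) (by omega)
  have hpw : (3 ^ f) ^ 3 = 3 ^ (3 * f) := by rw [← pow_mul, mul_comm]
  have hpd : PD (3 ^ f) f (fun c => c ∈ [1]) (fun c => c ∈ [3]) (ord * f) := by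
    refine PD.mul (PD.of_dvd ?_ hord) (PD.le_f (by omega) le_rfl)
    repeat' with_reducible apply PD.mul
    · exact PD.base.pow _
    · have := PD.plus (r := 3 ^ f) (f := f) (Lp := fun c => c ∈ [1]) (Lm := fun c => c ∈ [3]) (c := 1)
        (by decide)
      rwa [pow_one] at this
    · exact PD.minus (by decide)
  have hZ : Zd 3 (3 * f) (ord * f) := zd_of_pd (by norm_num) (by omega) (by norm_num) (by omega) hpd (by decide)
    (by decide)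
  have h3f : 3 ^ f ≤ 3 ^ (3 * f) := Nat.pow_le_pow_right (by norm_num) (by omega)
  rw [hpw]
  refine nf3_of Nat.prime_three (by omega) ?_ ?_ ?_
  · intro h
    have : 3 ∣ 16 := by rw [← h]; exact dvd_pow_self 3 (by omega)
    omega
  · intro F hMF hF h3 _ _ h1
    have hFf : F = f := by omega
    subst hFf
    exact pzd1 Nat.prime_three (by omega) (by omega) hZ (by omega) hMF (by omega) h1
  · exact nzd Nat.prime_three (by omega) (by omega) hZ (by omega) (by omega)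

end Cfsg.Agent.H691.T3.Fam
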