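import Cfsg.Agent.H462.T3.Final3

/-!
# The last step of S4855, with the hypotheses which are available (helper691)

`final3b` is `H462.T3.final3` (helper462) with the full list of the degrees of `GL₃(F)` replaced by
`charDegrees SL₃(F) ⊆ DT q` and the fact that `(q - 1)² (q + 1) / 3` is not a degree of `GL₃(F)`.
-/

set_option autoImplicit false

namespace Cfsg.Agent.H691.T3

open Cfsg Matrix Cfsg.Agent.Characters Cfsg.Agent.Characters.Core Cfsg.Agent.H672
open Cfsg.Agent.H691 Cfsg.Agent.H691.T3 Cfsg.Agent.H462.T3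

universe u v

/-- the degrees of `SL₃(F)` dividing `(q - 1)² (q + 1) / 3` -/
theorem deg_cases_b {q d m : ℕ} (h3 : 3 ≤ q) (hm : 3 * m = (q - 1) ^ 2 * (q + 1)) (hd : d ∈ DT q) (hdm : d ∣ m) :
    d = 1 ∨ d = m := by
  have hd3 : d ∣ (q - 1) ^ 2 * (q + 1) := by
    rw [← hm]
    exact Dvd.dvd.mul_left hdm 3
  have h3d : 3 * d ∣ (q - 1) ^ 2 * (q + 1) := by
    rw [← hm]
    exact Nat.mul_dvd_mul_left 3 hdm
  have hq := Cfsg.Agent.H462.T3.not_q_dvd h3
  have hn := Cfsg.Agent.H462.T3.not_n_dvd h3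
  have hpos : 0 < (q - 1) ^ 2 * (q + 1) := by
    have : 0 < q - 1 := by omega
    positivity
  have hmpos : 0 < m := by omega
  rcases hd with h | h | h | h | h | ⟨-, h | h⟩ | ⟨-, h⟩ | ⟨-, h | h⟩
  · exact Or.inl h
  · exfalso
    refine hq (dvd_trans ?_ hd3)
    rw [h]
    exact ⟨q + 1, by ring⟩
  · exfalso
    refine hq (dvd_trans ?_ hd3)
    rw [h]
    exact dvd_pow_self _ (by norm_num)
  · exfalso
    have h2 := Nat.le_of_dvd hpos hd3
    obtain ⟨a, ha⟩ : ∃ a, q = a + 3 := ⟨q - 3, by omega⟩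
    rw [ha] at h h2
    have e1 : a + 3 - 1 = a + 2 := rfl
    have e3 : (a + 3) ^ 3 = a ^ 3 + 9 * a ^ 2 + 27 * a + 27 := by ring
    have e4 : (a + 2) ^ 2 * (a + 3 + 1) = a ^ 3 + 8 * a ^ 2 + 20 * a + 16 := by ring
    rw [e1, e4] at h2
    rw [e3] at h
    omega
  · exfalso
    have h2 := Nat.le_of_dvd hmpos hdm
    rw [h, ← hm] at h2
    omega
  · exact (hn (h ▸ hd3)).elim
  · exact (hn (dvd_trans (by rw [h]; exact Dvd.intro_left _ rfl) hd3)).elim
  · exact (hn (dvd_trans (by rw [h]; exact Dvd.intro_left _ rfl) hd3)).elim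
  · exact (hn (dvd_trans (by rw [h]; exact Dvd.intro_left _ rfl) h3d)).elim
  · right
    omega

/-- **The small characters.** -/
theorem exists_small_b {G : Type u} [Group G] [Finite G] {F : Type} [Field F] [Fintype F] (h3 : 3 ≤ Fintype.card F)
    (hgl3 : ∀ d ∈ charDegrees (GL (Fin 3) F), 3 * d ≠ (Fintype.card F - 1) ^ 2 * (Fintype.card F + 1))
    (hsl : charDegrees (SpecialLinearGroup (Fin 3) F) ⊆ DT (Fintype.card F))
    (hperf : commutator (commutator G) = ⊤)
    (σ : Matrix.SpecialLinearGroup (Fin 3) F →* commutator G) (hσ : Function.Surjective σ)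
    {χ : G → ℂ} (hχ : IsIrrCharacter G χ)
    (hm : 3 * charDegree χ = (Fintype.card F - 1) ^ 2 * (Fintype.card F + 1)) :
    ∃ ψ : commutator G → ℂ, IsIrrCharacter _ ψ ∧ Over (commutator G).subtype χ ψ ∧ charDegree ψ = charDegree χ ∧
      ∀ A : GL (Fin 3) F, A ∉ HH F → ¬ ∀ s, ψ (σ (cA A s)) = ψ (σ s) := by
  classical
  obtain ⟨ψ, hψ, ho⟩ := exists_under (f := (commutator G).subtype) hχ
  have hdvd := (charDegree_dvd_of_over (commutator G) hχ hψ ho).1
  have hψσ : IsIrrCharacter _ (ψ ∘ σ) := isIrr_comp σ hσ hψ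
  have hdeg : charDegree (ψ ∘ σ) = charDegree ψ := by
    apply charDegree_of_eq
    rw [Function.comp, map_one, coe_charDegree hψ]
  have hbig : 3 < (Fintype.card F - 1) ^ 2 * (Fintype.card F + 1) := by
    obtain ⟨a, ha⟩ : ∃ a, Fintype.card F = a + 3 := ⟨Fintype.card F - 3, by omega⟩
    rw [ha]
    have e1 : a + 3 - 1 = a + 2 := rfl
    rw [e1]
    nlinarith [Nat.zero_le (a ^ 3), Nat.zero_le (a ^ 2)]
  have hmem : charDegree ψ ∈ DT (Fintype.card F) := by
    rw [← hdeg]
    exact hsl ⟨⟨ψ ∘ σ, hψσ⟩, rfl⟩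
  rcases deg_cases_b h3 hm hmem hdvd with h2 | h7
  · exfalso
    have h7 : ψ 1 = 1 := by rw [← coe_charDegree hψ, h2, Nat.cast_one]
    have h8 := eq_one_of_perfect hperf hψ h7
    subst h8
    have h9 := Cfsg.Agent.H279.CentProd.degree_one_of_over_one (N := commutator G) le_rfl hχ ho
    have h10 : charDegree χ = 1 := charDegree_of_eq (by rw [h9, Nat.cast_one])
    rw [h10] at hm
    omega
  · refine ⟨ψ, hψ, ho, h7, fun A hA hfix => ?_⟩
    obtain ⟨Φ, hΦ, h1, h2, h4⟩ := exists_gl hψσ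
    have h8 := h4 A hA hfix
    rw [hdeg, h7] at h8
    exact hgl3 (charDegree Φ) ⟨⟨Φ, hΦ⟩, rfl⟩ (by rw [h8, hm])

/-- **The last step of S4855.** -/
theorem final3b {G : Type*} [Group G] [Finite G] {F : Type} [Field F] [Fintype F] (h3 : 3 ≤ Fintype.card F)
    (hD : charDegrees G ⊆ DT (Fintype.card F))
    (ht : 3 ∣ Fintype.card F - 1 → ∀ d, 3 * d = (Fintype.card F - 1) ^ 2 * (Fintype.card F + 1) → d ∈ charDegrees G)
    (e : Nonempty (commutator G ≃* SpecialLinearGroup (Fin 3) F) ∨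
      Nonempty (commutator G ≃* ProjectiveSpecialLinearGroup (Fin 3) F))
    (hgl3 : 3 ∣ Fintype.card F - 1 → ∀ d ∈ charDegrees (GL (Fin 3) F),
      3 * d ≠ (Fintype.card F - 1) ^ 2 * (Fintype.card F + 1))
    (hsl : charDegrees (SpecialLinearGroup (Fin 3) F) ⊆ DT (Fintype.card F))
    (hpsl : 3 ∣ Fintype.card F - 1 → ∀ d ∈ charDegrees (ProjectiveSpecialLinearGroup (Fin 3) F),
      3 * d ≠ (Fintype.card F - 1) ^ 2 * (Fintype.card F + 1))
    (hinn : ∀ β : MulAut (ProjectiveSpecialLinearGroup (Fin 3) F),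
      (∀ θ : ProjectiveSpecialLinearGroup (Fin 3) F → ℂ, IsIrrCharacter _ θ →
        (charDegree θ = (Fintype.card F - 1) ^ 2 * (Fintype.card F + 1) ∨ charDegree θ + 1 = Fintype.card F ^ 3) →
        θ ∘ β = θ) → IsInnerDiagonalAutPSL β) :
    ∃ K A : Subgroup G, Nonempty (K ≃* SpecialLinearGroup (Fin 3) F) ∧ IsMulCommutative A ∧
      A ≤ Subgroup.centralizer (K : Set G) ∧ K ⊔ A = ⊤ := by
  classical
  obtain ⟨σ, ρ, hσ, hρσ, hker, hchar, hor⟩ := exists_sigma e
  have hmat := exists_matrix σ ρ hρσ hker hchar h3 hD hinn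
  have hperfSL : commutator (Matrix.SpecialLinearGroup (Fin 3) F) = ⊤ :=
    LieClassical.SLGen.commutator_eq_top (by rw [Fintype.card_fin])
  have hperf : commutator (commutator G) = ⊤ := perfect_of_surj hperfSL σ hσ
  -- commutators of elements of the centralizer
  have hcomm : ∀ x ∈ Subgroup.centralizer (commutator G : Set G), ∀ y ∈ Subgroup.centralizer (commutator G : Set G),
      x * y * x⁻¹ * y⁻¹ ∈ commutator G ∧ x * y * x⁻¹ * y⁻¹ ∈ Subgroup.centralizer (commutator G : Set G) := by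
    intro x hx y hy
    refine ⟨?_, ?_⟩
    · have h1 := Subgroup.commutator_mem_commutator (Subgroup.mem_top x) (Subgroup.mem_top y)
      rwa [commutatorElement_def] at h1
    · exact Subgroup.mul_mem _ (Subgroup.mul_mem _ (Subgroup.mul_mem _ hx hy) (Subgroup.inv_mem _ hx))
        (Subgroup.inv_mem _ hy)
  have hmk : (∀ z : commutator G, z ∈ Subgroup.center (commutator G) →
      (∃ x ∈ Subgroup.centralizer (commutator G : Set G), ∃ y ∈ Subgroup.centralizer (commutator G : Set G),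
        (z : G) = x * y * x⁻¹ * y⁻¹) → z = 1) →
      IsMulCommutative (Subgroup.centralizer (commutator G : Set G)) := by
    intro hz
    refine ⟨⟨fun x y => ?_⟩⟩
    obtain ⟨h1, h2⟩ := hcomm x x.2 y y.2
    have h4 : (⟨_, h1⟩ : commutator G) ∈ Subgroup.center (commutator G) := by
      rw [Subgroup.mem_center_iff]
      intro n
      apply Subtype.ext
      exact Subgroup.mem_centralizer_iff.1 h2 n n.2
    have h5 := congrArg Subtype.val (hz ⟨_, h1⟩ h4 ⟨x, x.2, y, y.2, rfl⟩)
    apply Subtype.ext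
    have h6 : (x : G) * y * (x : G)⁻¹ * (y : G)⁻¹ = 1 := h5
    rw [mul_inv_eq_one, mul_inv_eq_iff_eq_mul] at h6
    exact h6
  by_cases hd : 3 ∣ Fintype.card F - 1
  · -- `3 ∣ q - 1`
    obtain ⟨m, hm⟩ : ∃ m, 3 * m = (Fintype.card F - 1) ^ 2 * (Fintype.card F + 1) := by
      obtain ⟨k, hk⟩ := hd
      exact ⟨k * (Fintype.card F - 1) * (Fintype.card F + 1), by
        rw [pow_two]
        nth_rewrite 2 [hk]
        ring⟩
    obtain ⟨χ, hχm⟩ := ht hd m hm
    have hχ := χ.2
    rw [← hχm] at hm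
    obtain ⟨ψ, hψ, ho, hψd, hno⟩ := exists_small_b h3 (hgl3 hd) hsl hperf σ hσ hχ hm
    have hres : (χ : G → ℂ) ∘ (commutator G).subtype = ψ := eq_of_over_of_charDegree_eq hχ hψ ho hψd
    have hirr : IsIrrCharacter (commutator G) ((χ : G → ℂ) ∘ (commutator G).subtype) := by rw [hres]; exact hψ
    -- no irreducible character of `PSL₃(F)` has degree `m`
    have hnopsl : ∀ θ : ProjectiveSpecialLinearGroup (Fin 3) F → ℂ, IsIrrCharacter _ θ → θ 1 ≠ ψ 1 := by
      intro θ hθ h1
      have h2 : charDegree θ = charDegree (χ : G → ℂ) := by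
        rw [← hψd]
        apply charDegree_of_eq
        rw [h1, coe_charDegree hψ]
      exact hpsl hd (charDegree θ) ⟨⟨θ, hθ⟩, rfl⟩ (by rw [h2, hm])
    -- `G' ≅ SL₃(F)`
    have hinj : Function.Injective σ := by
      rcases hor with h | h
      · exact h
      · exfalso
        have hρb : Function.Bijective ρ := ⟨(MonoidHom.ker_eq_bot_iff ρ).1 h, rho_surj σ ρ hρσ⟩
        let e' : commutator G ≃* ProjectiveSpecialLinearGroup (Fin 3) F := MulEquiv.ofBijective ρ hρb
        refine hnopsl (ψ ∘ e'.symm) (isIrr_comp e'.symm.toMonoidHom e'.symm.surjective hψ) ?_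
        rw [Function.comp, map_one]
    let eS : SpecialLinearGroup (Fin 3) F ≃* commutator G := MulEquiv.ofBijective σ ⟨hinj, hσ⟩
    refine ⟨commutator G, Subgroup.centralizer (commutator G : Set G), ⟨eS.symm⟩, ?_, le_rfl, ?_⟩
    · apply hmk
      rintro z hz ⟨x, hx, y, hy, hxy⟩
      by_contra hz1
      -- `z` is in the kernel of `ψ`
      have h1 : ‖(χ : G → ℂ) x‖ = ((charDegree (χ : G → ℂ) : ℕ) : ℝ) := by
        rw [norm_of_centralizes hχ hirr hx, ← coe_charDegree hχ, Complex.norm_natCast]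
      have h2 := Cfsg.Agent.CharactersDeep.NormalSylow.apply_commutator_eq hχ (coe_charDegree hχ).symm h1 y
      have h4 : ψ z = ψ 1 := by
        rw [← hres]
        change (χ : G → ℂ) (z : G) = (χ : G → ℂ) 1
        rw [hxy, h2]
      -- the centre is in the kernel
      have ht0 : eS.symm z ∈ Subgroup.center (SpecialLinearGroup (Fin 3) F) := by
        rw [Subgroup.mem_center_iff]
        intro s
        apply eS.injective
        rw [map_mul, map_mul, MulEquiv.apply_symm_apply]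
        exact Subgroup.mem_center_iff.1 hz (eS s)
      have ht1 : eS.symm z ≠ 1 := by
        intro h
        apply hz1
        apply eS.symm.injective
        rw [h, map_one]
      have hψS : IsIrrCharacter _ (ψ ∘ eS) := isIrr_comp eS.toMonoidHom eS.surjective hψ
      have hkerψ : Subgroup.center (SpecialLinearGroup (Fin 3) F) ≤ Cfsg.Agent.H686.CharKit.chKer ⟨ψ ∘ eS, hψS⟩ := by
        intro s hs
        obtain ⟨k, rfl⟩ := center_gen ht0 ht1 hs
        apply Subgroup.pow_mem
        rw [Cfsg.Agent.H686.CharKit.mem_chKer]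
        change ψ (eS (eS.symm z)) = ψ (eS 1)
        rw [MulEquiv.apply_symm_apply, map_one, h4]
      obtain ⟨θ, hθ⟩ := Cfsg.Agent.H686.CharKit.exists_infl (Subgroup.center (SpecialLinearGroup (Fin 3) F)) ⟨ψ ∘ eS, hψS⟩ hkerψ
      refine hnopsl θ.1 θ.2 ?_
      have h5 := Cfsg.Agent.H686.CharKit.infl_apply (Subgroup.center (SpecialLinearGroup (Fin 3) F)) θ 1
      rw [hθ] at h5
      have h6 : ψ (eS 1) = θ.1 1 := h5
      rw [← h6, map_one]
    · rw [Subgroup.eq_top_iff']
      intro g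
      obtain ⟨A, hA⟩ := hmat g
      refine mem_sup σ hσ hA ?_
      by_contra hAH
      refine hno A hAH fun s => ?_
      rw [← hA s, ← hres]
      change (χ : G → ℂ) (((MulAut.conjNormal g : MulAut (commutator G)) (σ s) : commutator G) : G) =
        (χ : G → ℂ) (σ s : G)
      rw [MulAut.conjNormal_apply]
      exact isIrr_isClassFunction hχ (σ s : G) g
  · -- `3 ∤ q - 1`
    have hinj : Function.Injective σ := by
      rw [injective_iff_map_eq_one]
      intro s hs
      apply center_eq_one hd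
      have h1 := hρσ s
      rw [hs, map_one] at h1
      exact (QuotientGroup.eq_one_iff s).1 h1.symm
    let eS : SpecialLinearGroup (Fin 3) F ≃* commutator G := MulEquiv.ofBijective σ ⟨hinj, hσ⟩
    refine ⟨commutator G, Subgroup.centralizer (commutator G : Set G), ⟨eS.symm⟩, ?_, le_rfl, ?_⟩
    · apply hmk
      rintro z hz -
      apply eS.symm.injective
      rw [map_one]
      apply center_eq_one hd
      rw [Subgroup.mem_center_iff]
      intro s
      apply eS.injective
      rw [map_mul, map_mul, MulEquiv.apply_symm_apply]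
      exact Subgroup.mem_center_iff.1 hz (eS s)
    · rw [Subgroup.eq_top_iff']
      intro g
      obtain ⟨A, hA⟩ := hmat g
      exact mem_sup σ hσ hA (mem_HH_of_not_dvd hd A)

end Cfsg.Agent.H691.T3
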