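import Cfsg.Agent.H691.T3.Defs

/-!
# The list of the degrees of `GL₃(F)` (helper691)
-/

set_option autoImplicit false

namespace Cfsg.Agent.H691.T3

open Cfsg

/-- the classification of the degrees of `GL₃(F)` -/
def GLList (F : Type) [Field F] [Fintype F] : Prop :=
  ∀ χ : GL (Fin 3) F → ℂ, IsIrrCharacter (GL (Fin 3) F) χ →
    (¬ Stab χ ∧ (charDegree χ = 1 ∨ charDegree χ = Fintype.card F ^ 2 + Fintype.card F ∨
      charDegree χ = Fintype.card F ^ 3 ∨ charDegree χ + 1 = Fintype.card F ^ 3 ∨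
      (3 ≤ Fintype.card F ∧ (charDegree χ = Fintype.card F ^ 2 + Fintype.card F + 1 ∨
        charDegree χ = Fintype.card F * (Fintype.card F ^ 2 + Fintype.card F + 1))))) ∨
    (charDegree χ = (Fintype.card F + 1) * (Fintype.card F ^ 2 + Fintype.card F + 1) ∧ 4 ≤ Fintype.card F ∧
      (Fintype.card F = 4 → Stab χ)) ∨
    charDegree χ = (Fintype.card F - 1) ^ 2 * (Fintype.card F + 1)

end Cfsg.Agent.H691.T3
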