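import Cfsg.Agent.H691.T3.Lie
import Cfsg.Agent.S0256
import Cfsg.Agent.H464.PslDeg

/-!
# The groups of Lie type (helper691)

`lie3` : an almost simple group with socle `S` of Lie type, whose degrees are in `DT q`: the socle is `PSL₃(q)` (or
`A₈`).
-/

set_option autoImplicit false

namespace Cfsg.Agent.H691.T3.Lie

open Cfsg Cfsg.Agent.H934.OutB Matrix Cfsg.Agent.H691.Lie

universe u

/-- `S` is a group `PSL₃(F)`, `|F| ≥ 3`. -/
def IsPSLThree (S : Type u) [Group S] : Prop :=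
  ∃ (F : Type) (_ : Field F) (_ : Fintype F), 3 ≤ Fintype.card F ∧
    Nonempty (S ≃* ProjectiveSpecialLinearGroup (Fin 3) F)

theorem lie_conc3 {p : ℕ} (hp : p.Prime) {S : Type u} [Group S] [Finite S] [IsSimpleGroup S]
    (hna : ¬ IsMulCommutative S) (h : IsLieTypeChar p S) :
    IsPSLTwo S ∨ IsPSLThree S ∨ Nonempty (S ≃* alternatingGroup (Fin 8)) ∨ T3.Lie.Conc p S := by
  have := Fact.mk hp
  rcases h with h | h | h | h | h | h | h | h | h | h | h
  · obtain ⟨F, _, _, _, n, hn, hn2, ⟨e⟩⟩ := h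
    have := isSimple_congr e
    rcases hn.eq_or_lt with rfl | hn3
    · left
      rcases (hn2 rfl).eq_or_lt with h4 | h4
      · obtain ⟨e'⟩ := S0252.result h4.symm
        exact isPSLTwo_of_five (e.trans e')
      · exact ⟨F, inferInstance, inferInstance, h4, ⟨e⟩⟩
    · rcases (show 3 ≤ n from hn3).eq_or_lt with rfl | hn4
      · by_cases h2 : Fintype.card F = 2
        · left
          have h1 := S0243.result (F := F) rfl 3 (by omega)
          have h168 : Nat.card S = 168 := by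
            rw [Nat.card_congr e.toEquiv]
            rw [Fin.prod_univ_succ, Fin.prod_univ_succ, Fin.prod_univ_succ, h2] at h1
            norm_num at h1
            exact h1
          have h5 : Fact (Nat.Prime 7) := ⟨by norm_num⟩
          exact ⟨ZMod 7, inferInstance, inferInstance, by rw [ZMod.card]; norm_num,
            S0495.result h168 (by rw [ZMod.card])⟩
        · right; left
          have h1 : 1 < Fintype.card F := Fintype.one_lt_card
          exact ⟨F, inferInstance, inferInstance, by omega, ⟨e⟩⟩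
      · by_cases h42 : n = 4 ∧ Fintype.card F = 2
        · obtain ⟨rfl, hF⟩ := h42
          obtain ⟨e'⟩ := S0256.result hF
          exact Or.inr (Or.inr (Or.inl ⟨e.trans e'⟩))
        · exact Or.inr (Or.inr (Or.inr ((T3.Lie.psl hn4 (na_congr e hna) h42).congr e)))
  · obtain ⟨F, _, _, _, m, hm, hm2, ⟨e⟩⟩ := h
    have := isSimple_congr e
    exact Or.inr (Or.inr (Or.inr ((T3.Lie.psp hm hm2 (na_congr e hna)).congr e)))
  · obtain ⟨F, _, _, _, n, q, hF, hn, h32, ⟨e⟩⟩ := h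
    have := isSimple_congr e
    exact Or.inr (Or.inr (Or.inr ((T3.Lie.psu hF hn h32 (na_congr e hna)).congr e)))
  · obtain ⟨F, _, _, _, m, hm, ho, ⟨e⟩⟩ := h
    have := isSimple_congr e
    exact Or.inr (Or.inr (Or.inr ((T3.Lie.oodd hm ho (na_congr e hna)).congr e)))
  · obtain ⟨F, _, _, _, m, hm, ⟨e⟩⟩ := h
    have := isSimple_congr e
    exact Or.inr (Or.inr (Or.inr ((T3.Lie.oplus hm (na_congr e hna)).congr e)))
  · obtain ⟨F, _, _, _, m, a, b, hm, hab, ⟨e⟩⟩ := h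
    have := isSimple_congr e
    exact Or.inr (Or.inr (Or.inr ((T3.Lie.ominus hm hab (na_congr e hna)).congr e)))
  · obtain ⟨F, _, _, _, h⟩ := h
    rcases h with ⟨hF, ⟨e⟩⟩ | ⟨⟨e⟩⟩ | ⟨⟨e⟩⟩ | ⟨⟨e⟩⟩ | ⟨⟨e⟩⟩
    · have := Finite.of_equiv S e.toEquiv
      exact Or.inr (Or.inr (Or.inr ((T3.Lie.g2 hF).congr e)))
    · have := Finite.of_equiv S e.toEquiv
      exact Or.inr (Or.inr (Or.inr (T3.Lie.f4.congr e)))
    · have := Finite.of_equiv S e.toEquiv
      exact Or.inr (Or.inr (Or.inr (T3.Lie.e6.congr e)))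
    · have := Finite.of_equiv S e.toEquiv
      exact Or.inr (Or.inr (Or.inr (T3.Lie.e7.congr e)))
    · have := Finite.of_equiv S e.toEquiv
      exact Or.inr (Or.inr (Or.inr (T3.Lie.e8.congr e)))
  · obtain ⟨K, _, _, _, q, hq, h⟩ := h
    rcases h with ⟨hK, ⟨e⟩⟩ | ⟨hK, ⟨e⟩⟩
    · have := Finite.of_equiv S e.toEquiv
      exact Or.inr (Or.inr (Or.inr ((T3.Lie.te6 hq hK).congr e)))
    · have := Finite.of_equiv S e.toEquiv
      exact Or.inr (Or.inr (Or.inr ((T3.Lie.td4 hq hK).congr e)))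
  · obtain ⟨rfl, K, _, _, m, hm, hK, ⟨e⟩⟩ := h
    have := Finite.of_equiv S e.toEquiv
    exact Or.inr (Or.inr (Or.inr ((T3.Lie.sz hm hK).congr e)))
  · obtain ⟨rfl, K, _, _, m, hm, hK, ⟨e⟩⟩ := h
    have := Finite.of_equiv S e.toEquiv
    exact Or.inr (Or.inr (Or.inr ((T3.Lie.tf4 hm hK).congr e)))
  · obtain ⟨rfl, K, _, _, m, hm, hK, ⟨e⟩⟩ := h
    have := Finite.of_equiv S e.toEquiv
    exact Or.inr (Or.inr (Or.inr ((T3.Lie.ree hm hK).congr e)))

/-- The prime divisors of the elements of `DT q`. -/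
theorem dt_prime {q l d : ℕ} (hq : 2 ≤ q) (hl : l.Prime) (hd : d ∈ DT q) (h : l ∣ d) :
    l ∣ 3 * (q * ((q ^ 2 - 1) * (q ^ 3 - 1))) := by
  have hc := cube_sub q (by omega)
  have h3 : q ^ 3 - 1 = (q - 1) * (q ^ 2 + q + 1) := by omega
  have h2 : q ^ 2 - 1 = (q + 1) * (q - 1) := by
    have := Nat.sq_sub_sq q 1
    rwa [one_pow] at this
  have hn : q ^ 2 + q + 1 ∣ 3 * (q * ((q ^ 2 - 1) * (q ^ 3 - 1))) := by
    rw [h3]
    exact (((Dvd.intro_left (q - 1) rfl).mul_left _).mul_left _).mul_left _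
  have hqq : q ∣ 3 * (q * ((q ^ 2 - 1) * (q ^ 3 - 1))) := (Dvd.intro _ rfl).mul_left _
  have hq1 : q - 1 ∣ 3 * (q * ((q ^ 2 - 1) * (q ^ 3 - 1))) := by
    rw [h2]
    exact (((Dvd.intro_left (q + 1) rfl).mul_right _).mul_left _).mul_left _
  have hq2 : q + 1 ∣ 3 * (q * ((q ^ 2 - 1) * (q ^ 3 - 1))) := by
    rw [h2]
    exact (((Dvd.intro (q - 1) rfl).mul_right _).mul_left _).mul_left _
  have hsq : l ∣ (q - 1) ^ 2 * (q + 1) → l ∣ 3 * (q * ((q ^ 2 - 1) * (q ^ 3 - 1))) := by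
    intro h
    rcases hl.dvd_mul.1 h with h | h
    · exact (hl.dvd_of_dvd_pow h).trans hq1
    · exact h.trans hq2
  rcases hd with hd | hd | hd | hd | hd | ⟨-, hd | hd⟩ | ⟨-, hd⟩ | ⟨-, hd | hd⟩
  · rw [hd] at h
    exact absurd (Nat.dvd_one.1 h) hl.one_lt.ne'
  · rw [hd, show q ^ 2 + q = q * (q + 1) by ring] at h
    rcases hl.dvd_mul.1 h with h | h
    · exact h.trans hqq
    · exact h.trans hq2
  · rw [hd] at h
    exact (hl.dvd_of_dvd_pow h).trans hqq
  · have hd' : d = (q - 1) * (q ^ 2 + q + 1) := by omega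
    rw [hd'] at h
    rcases hl.dvd_mul.1 h with h | h
    · exact h.trans hq1
    · exact h.trans hn
  · rw [hd] at h
    exact hsq h
  · rw [hd] at h
    exact h.trans hn
  · rw [hd] at h
    rcases hl.dvd_mul.1 h with h | h
    · exact h.trans hqq
    · exact h.trans hn
  · rw [hd] at h
    rcases hl.dvd_mul.1 h with h | h
    · exact h.trans hq2
    · exact h.trans hn
  · have h' : l ∣ (q + 1) * (q ^ 2 + q + 1) := by
      rw [← hd]
      exact h.mul_left 3
    rcases hl.dvd_mul.1 h' with h | h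
    · exact h.trans hq2
    · exact h.trans hn
  · apply hsq
    rw [← hd]
    exact h.mul_left 3

/-- Itô-Michler for `S` -/
def IMS (S : Type u) [Group S] : Prop := ∀ l : ℕ, l.Prime → l ∣ Nat.card S → ∃ d ∈ charDegrees S, l ∣ d

theorem types3' {A : Type u} [Group A] [Finite A] {S : Subgroup A} (h : AS A S) {p F : ℕ} (hp : p.Prime)
    (h3 : 3 ≤ p ^ F) (hpS : p ∣ Nat.card S) (hD : charDegrees A ⊆ DT (p ^ F)) :
    (p ^ F + 1 ∣ Nat.card A ∨ (p ^ F) ^ 2 + p ^ F + 1 ∣ S.index) ∧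
      ((p ^ F) ^ 2 + p ^ F + 1 ∣ 3 * Nat.card A ∨ p ^ F + 1 ∣ S.index) := by
  constructor
  · by_contra hcon
    rw [not_or] at hcon
    apply hcon.2
    apply dvd_index h hp hpS
    intro d hd
    have hdA := H681.DegBasic.dvd_card hd
    rcases dt_cases (by omega) (hD hd) with h2 | h2 | h2 | h2 | h2
    · exact Or.inl h2
    · exact Or.inr (Or.inl ⟨F * 3, by rw [h2, pow_mul]⟩)
    · exact absurd (h2.1.trans hdA) hcon.1
    · exact absurd (h2.1.trans hdA) hcon.1
    · exact Or.inr (Or.inr h2.1)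
  · by_contra hcon
    rw [not_or] at hcon
    apply hcon.2
    apply dvd_index h hp hpS
    intro d hd
    have hdA := H681.DegBasic.dvd_card hd
    rcases dt_cases (by omega) (hD hd) with h2 | h2 | h2 | h2 | h2
    · exact Or.inl h2
    · exact Or.inr (Or.inl ⟨F * 3, by rw [h2, pow_mul]⟩)
    · exact Or.inr (Or.inr h2.1)
    · exact Or.inr (Or.inr h2.1)
    · exact absurd ((h2.1.trans hdA).mul_left 3) hcon.1

/-- **The arithmetic exit.** -/
theorem false_of_NF3 {A : Type u} [Group A] [Finite A] {S : Subgroup A} (h : AS A S) {p F : ℕ} (hp : p.Prime)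
    (hF : F ≠ 0) (h3 : 3 ≤ p ^ F) (hpS : p ∣ Nat.card S) (hD : charDegrees A ⊆ DT (p ^ F)) (hIM : IMS S) {s out : ℕ}
    (hs : s ∈ charDegrees A) (hout : Nat.card (Out S) ∣ out) (hNF : NF3 s (Nat.card S) out) : False := by
  have := h.normal
  have h1 : S.index ∣ out := h.index_dvd_out.trans hout
  have h8 : Nat.card A ∣ Nat.card S * out := by
    rw [← S.card_mul_index]
    exact Nat.mul_dvd_mul_left _ h1
  obtain ⟨h6, h7⟩ := types3' h hp h3 hpS hD
  refine hNF p F hp hF h3 (hD hs) hpS ?_ ?_ ?_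
  · intro l hl hlS
    obtain ⟨d, hd, hld⟩ := hIM l hl hlS
    obtain ⟨x, hx, hdx, -⟩ := exists_mult (A := A) hd
    exact dt_prime (by omega) hl (hD hx) (hld.trans hdx)
  · rcases h6 with h6 | h6
    · exact Or.inl (h6.trans h8)
    · exact Or.inr (h6.trans h1)
  · rcases h7 with h7 | h7
    · exact Or.inl (h7.trans (Nat.mul_dvd_mul_left 3 h8))
    · exact Or.inr (h7.trans h1)

/-- The degree of the Steinberg character. -/
theorem st_mem {A : Type u} [Group A] [Finite A] {S : Subgroup A} (h : AS A S) {r s : ℕ} (hr : r.Prime)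
    (hL : IsLieTypeChar r S) (hs : ∀ Q : Sylow r S, Nat.card Q = s) : s ∈ charDegrees A := by
  have := h.normal
  have := h.simple
  have := Fact.mk hr
  obtain ⟨χ, hχ, -, hχ1⟩ := StExt.exists_ext S (H996.AllSplit.hasSplit_of_lie hr hL)
  obtain ⟨Q⟩ := (inferInstance : Nonempty (Sylow r S))
  rw [H681.DegBasic.mem_charDegrees]
  exact ⟨χ, hχ, by rw [hχ1 Q, hs Q]⟩

/-! ### `PSL₂` -/

theorem small {a b : ℕ} (h : a ∣ b) (hb : b < a) : b = 0 := Nat.eq_zero_of_dvd_of_lt h hb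

theorem cube_add_false {q x : ℕ} (hq : 3 ≤ q) (hx : x ∈ DT q) (h : q ^ 3 + 1 ∣ x) : False := by
  have hle := dt_le (by omega) hx
  have hx0 : 0 < x := by
    rcases Nat.eq_zero_or_pos x with h0 | h0
    · exfalso
      subst h0
      have hc := cube_sub q (by omega)
      have h1 : 0 < (q - 1) ^ 2 * (q + 1) := Nat.mul_pos (Nat.pow_pos (by omega)) (by omega)
      have h2 : 0 < q ^ 3 := Nat.pow_pos (by omega)
      rcases hx with hd | hd | hd | hd | hd | ⟨-, hd | hd⟩ | ⟨-, hd⟩ | ⟨-, hd | hd⟩ <;> nlinarith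
    · exact h0
  obtain ⟨k, hk⟩ := h
  have hk1 : k = 1 := by
    rcases k with _ | _ | k
    · omega
    · rfl
    · exfalso
      have h1 : (q ^ 3 + 1) * 2 ≤ (q ^ 3 + 1) * (k + 1 + 1) := Nat.mul_le_mul_left _ (by omega)
      have h2 : q * q * 3 ≤ q * q * q := Nat.mul_le_mul_left _ hq
      have h3 : 3 * q ≤ q * q := Nat.mul_le_mul_right _ hq
      nlinarith
  rw [hk1, mul_one] at hk
  subst hk
  have hc := cube_sub q (by omega)
  have h3 : 3 * q ≤ q * q := Nat.mul_le_mul_right _ hq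
  have h4 : (q - 1) ^ 2 * (q + 1) ≤ q ^ 3 := by
    have h1 : (q - 1) ^ 2 * (q + 1) ≤ (q - 1) * (q ^ 2 + q + 1) := by
      rw [pow_two, mul_assoc]
      apply Nat.mul_le_mul_left
      have : (q - 1) * (q + 1) ≤ q * (q + 1) := Nat.mul_le_mul_right _ (by omega)
      nlinarith
    omega
  have h5 : 3 * (q * q) ≤ q ^ 3 := by
    have : q ^ 3 = q * (q * q) := by ring
    rw [this]
    exact Nat.mul_le_mul_right _ hq
  rcases hx with hd | hd | hd | hd | hd | ⟨-, hd | hd⟩ | ⟨-, hd⟩ | ⟨-, hd | hd⟩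
  · omega
  · nlinarith
  · omega
  · omega
  · omega
  · nlinarith
  · nlinarith
  · nlinarith
  · nlinarith
  · omega

theorem n_add_false {q x : ℕ} (hq : 3 ≤ q) (hx : x ∈ DT q) (h : q ^ 2 + q + 2 ∣ x) : q = 5 ∧ x = 96 := by
  have hc := cube_sub q (by omega)
  obtain ⟨t, rfl⟩ : ∃ t, q = t + 3 := ⟨q - 3, by omega⟩
  have key : ∀ a b c : ℕ, (t + 3) ^ 2 + (t + 3) + 2 ∣ a → b = ((t + 3) ^ 2 + (t + 3) + 2) * c → a + 0 = b + 0 → True :=
    fun _ _ _ _ _ _ => trivial
  clear key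
  -- `q³ + q - 2 = (q - 1) (n + 1)`
  have hq3 : (t + 3) ^ 3 + (t + 1) = (t + 2) * ((t + 3) ^ 2 + (t + 3) + 2) := by ring
  have no : ∀ a : ℕ, 0 < a → a < (t + 3) ^ 2 + (t + 3) + 2 → ¬ (t + 3) ^ 2 + (t + 3) + 2 ∣ a := fun a h1 h2 h3 => by
    have := Nat.le_of_dvd h1 h3
    omega
  have hsq : ∀ y : ℕ, (t + 3) ^ 2 + (t + 3) + 2 ∣ y → y = (t + 3 - 1) ^ 2 * (t + 3 + 1) → t = 2 := by
    intro y hy hy'
    -- `y = (q - 2) (n + 1) - (q - 5)`
    have e1 : y + t = (t + 1) * ((t + 3) ^ 2 + (t + 3) + 2) + 2 := by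
      rw [hy', show t + 3 - 1 = t + 2 by omega]
      ring
    rcases Nat.lt_trichotomy t 2 with h2 | h2 | h2
    · exfalso
      -- `y = (t + 1) (n + 1) + (2 - t)`
      have e2 : y = (t + 1) * ((t + 3) ^ 2 + (t + 3) + 2) + (2 - t) := by omega
      rw [e2] at hy
      exact no (2 - t) (by omega) (by nlinarith) ((Nat.dvd_add_right (Dvd.intro_left _ rfl)).1 hy)
    · exact h2
    · exfalso
      have e2 : y + (t - 2) = (t + 1) * ((t + 3) ^ 2 + (t + 3) + 2) := by omega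
      have h3 : (t + 3) ^ 2 + (t + 3) + 2 ∣ y + (t - 2) := by rw [e2]; exact Dvd.intro_left _ rfl
      exact no (t - 2) (by omega) (by nlinarith) ((Nat.dvd_add_right hy).1 h3)
  rcases hx with hd | hd | hd | hd | hd | ⟨-, hd | hd⟩ | ⟨-, hd⟩ | ⟨h31, hd | hd⟩
  · exact absurd h (no _ (by omega) (by nlinarith))
  · exact absurd h (no _ (by nlinarith) (by nlinarith))
  · exfalso
    rw [hd] at h
    have h3 : (t + 3) ^ 2 + (t + 3) + 2 ∣ (t + 3) ^ 3 + (t + 1) := by rw [hq3]; exact Dvd.intro_left _ rfl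
    exact no (t + 1) (by omega) (by nlinarith) ((Nat.dvd_add_right h).1 h3)
  · exfalso
    have h3 : (t + 3) ^ 2 + (t + 3) + 2 ∣ x + (t + 2) := by
      rw [show x + (t + 2) = (t + 3) ^ 3 + (t + 1) by omega, hq3]
      exact Dvd.intro_left _ rfl
    exact no (t + 2) (by omega) (by nlinarith) ((Nat.dvd_add_right h).1 h3)
  · have ht := hsq x h hd
    subst ht
    exact ⟨rfl, by rw [hd]; norm_num⟩
  · exact absurd h (no _ (by nlinarith) (by nlinarith))
  · exfalso
    have h3 : (t + 3) ^ 2 + (t + 3) + 2 ∣ x + (t + 3) := by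
      rw [hd]
      exact ⟨t + 3, by ring⟩
    exact no (t + 3) (by omega) (by nlinarith) ((Nat.dvd_add_right h).1 h3)
  · exfalso
    have h3 : (t + 3) ^ 2 + (t + 3) + 2 ∣ x + (t + 4) := by
      rw [hd]
      exact ⟨t + 4, by ring⟩
    exact no (t + 4) (by omega) (by nlinarith) ((Nat.dvd_add_right h).1 h3)
  · exfalso
    have h3 : (t + 3) ^ 2 + (t + 3) + 2 ∣ 3 * x + (t + 4) := by
      rw [hd]
      exact ⟨t + 4, by ring⟩
    exact no (t + 4) (by omega) (by nlinarith) ((Nat.dvd_add_right (h.mul_left 3)).1 h3)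
  · exfalso
    have ht := hsq _ (h.mul_left 3) hd
    omega

theorem psl_two_false {A : Type u} [Group A] [Finite A] {S : Subgroup A} (h : AS A S) {p F : ℕ} (hp : p.Prime)
    (hF : F ≠ 0) (h3 : 3 ≤ p ^ F) (hD : charDegrees A ⊆ DT (p ^ F)) (hS : IsPSLTwo S) : False := by
  have := h.normal
  have := h.simple
  obtain ⟨K, i1, i2, h5K, ⟨e⟩⟩ := hS
  obtain ⟨r, hr, hLie, hQ⟩ := psl_two_sylow h5K e
  have hSt := hD (st_mem h hr hLie hQ)
  have hc : CharP K (ringChar K) := ringChar.charP K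
  obtain ⟨f, hr', hf, hK⟩ := exists_deg (F := K) (p := ringChar K)
  rw [hK] at hSt
  have htr : ∀ d, d ∈ charDegrees (ProjectiveSpecialLinearGroup (Fin 2) K) → d ∈ charDegrees S := fun d hd =>
    H681.DegBasic.charDegrees_comp e.toMonoidHom e.surjective hd
  have h7 : ∀ s, s = Fintype.card K → 7 ≤ s → ∃ x ∈ charDegrees A, s + 1 ∣ x ∧ x / (s + 1) ∣ S.index := by
    rintro s rfl hs
    exact exists_mult (A := A) (htr _ (H464.PslDeg.psl_degrees (F := K) hs).1)
  rcases dt_prime_pow hr' (by omega) hp hF h3 hSt with ⟨h1, h2⟩ | h1 | ⟨h1, h2⟩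
  · -- `q' = q³`
    have hs : Fintype.card K = (p ^ F) ^ 3 := by rw [hK, h1, h2, mul_comm, pow_mul]
    have h27 : 3 ^ 3 ≤ (p ^ F) ^ 3 := Nat.pow_le_pow_left h3 3
    obtain ⟨x, hx, hx', -⟩ := h7 _ rfl (by rw [hs]; omega)
    rw [hs] at hx'
    exact cube_add_false h3 (hD hx) hx'
  · -- `q' = n`
    have hs : Fintype.card K = (p ^ F) ^ 2 + p ^ F + 1 := by rw [hK, h1]
    have h9 : 3 ^ 2 ≤ (p ^ F) ^ 2 := Nat.pow_le_pow_left h3 2
    obtain ⟨x, hx, hx', hx3⟩ := h7 _ rfl (by rw [hs]; omega)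
    rw [hs] at hx' hx3
    obtain ⟨h10, h11⟩ := n_add_false h3 (hD hx) hx'
    rw [h10, h11] at hx3
    norm_num at hx3
    -- the outer automorphism group of `PSL₂(31)` has order two
    have hK31 : Fintype.card K = 31 := by rw [hs, h10]; norm_num
    have h31 : Fact (Nat.Prime 31) := ⟨by norm_num⟩
    have hf1 := S0813.result (F := K) 31 1 le_rfl (by rw [hK31, pow_one]) 2 le_rfl (fun _ => by norm_num)
    have := isSimple_congr e
    have := H934.OutCl.finite_psl (F := K) 2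
    rw [if_pos rfl, H934.OutCl.card_pgl (by omega), hK31, ← mul_assoc] at hf1
    have h12 := card_out_of_aut (na_congr e h.nonab) hf1
    have h13 := hx3.trans h.index_dvd_out
    rw [card_out_congr e, h12] at h13
    revert h13
    decide
  · -- `q = 3`, `q' = 16`
    have hs : Fintype.card K = 16 := by rw [hK, h2]
    obtain ⟨x, hx, hx', -⟩ := h7 _ rfl (by rw [hs]; norm_num)
    rw [hs] at hx'
    have hx2 := hD hx
    rw [h1] at hx2
    obtain ⟨k, hk⟩ := hx'
    rcases hx2 with hd | hd | hd | hd | hd | ⟨-, hd | hd⟩ | ⟨-, hd⟩ | ⟨-, hd | hd⟩ <;> omega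

/-! ### `PSL₃` -/

/-- the elements of `DT q` divisible by a prime divisor `≠ 3` of `n` -/
theorem n_dvd_of_prime {q l x : ℕ} (hq : 2 ≤ q) (hl : l.Prime) (hl3 : l ≠ 3) (hln : l ∣ q ^ 2 + q + 1)
    (hx : x ∈ DT q) (hlx : l ∣ x) : q ^ 2 + q + 1 ∣ 3 * x := by
  have hone : ¬ l ∣ 1 := fun h => hl.one_lt.ne' (Nat.dvd_one.1 h)
  have h1 : ¬ l ∣ q := fun h => hone (dvd_one_of_self hln h)
  have h2 : ¬ l ∣ q + 1 := fun h => hone (dvd_one_of_add hln h)
  have h3 : ¬ l ∣ q - 1 := fun h =>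
    hl3 ((Nat.prime_dvd_prime_iff_eq hl Nat.prime_three).1 (dvd_three (by omega) hln h))
  have hsq : ¬ l ∣ (q - 1) ^ 2 * (q + 1) := by
    intro h
    rcases hl.dvd_mul.1 h with h | h
    · exact h3 (hl.dvd_of_dvd_pow h)
    · exact h2 h
  have hc := cube_sub q (by omega)
  rcases hx with hd | hd | hd | hd | hd | ⟨-, hd | hd⟩ | ⟨-, hd⟩ | ⟨-, hd | hd⟩
  · exact absurd (hd ▸ hlx) hone
  · exfalso
    rw [hd, show q ^ 2 + q = q * (q + 1) by ring] at hlx
    rcases hl.dvd_mul.1 hlx with h | h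
    · exact h1 h
    · exact h2 h
  · exact absurd (hl.dvd_of_dvd_pow (hd ▸ hlx)) h1
  · refine Dvd.dvd.mul_left ⟨q - 1, ?_⟩ 3
    rw [mul_comm]
    omega
  · exact absurd (hd ▸ hlx) hsq
  · rw [hd]
    exact Dvd.intro_left _ rfl
  · rw [hd]
    exact (Dvd.intro_left _ rfl).mul_left 3
  · rw [hd]
    exact (Dvd.intro_left _ rfl).mul_left 3
  · rw [hd]
    exact Dvd.intro_left _ rfl
  · exact absurd (hd ▸ hlx.mul_left 3) hsq

/-- the Sylow subgroups of `PSL₃` in the defining characteristic, and the outer automorphism group -/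
theorem psl_three_data {S : Type u} [Group S] [Finite S] [IsSimpleGroup S] (hna : ¬ IsMulCommutative S) {K : Type}
    [Field K] [Fintype K] (e : S ≃* ProjectiveSpecialLinearGroup (Fin 3) K) :
    ∃ r f : ℕ, r.Prime ∧ 1 ≤ f ∧ Fintype.card K = r ^ f ∧ IsLieTypeChar r S ∧
      (∀ Q : Sylow r S, Nat.card Q = Fintype.card K ^ 3) ∧
      Nat.card (Cfsg.Out S) = 2 * f * Nat.gcd 3 (r ^ f - 1) := by
  have hc : CharP K (ringChar K) := ringChar.charP K
  obtain ⟨f, hr, hf, hK⟩ := exists_deg (F := K) (p := ringChar K)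
  have := Fact.mk hr
  have := isSimple_congr e
  have := H934.OutCl.finite_psl (F := K) 3
  refine ⟨ringChar K, f, hr, hf, hK, Or.inl ⟨K, inferInstance, inferInstance, hc, 3, by norm_num, fun h => by omega,
    ⟨e⟩⟩, ?_, ?_⟩
  · have h3 := S0243.result (F := K) rfl 3 (by omega)
    rw [Fin.prod_univ_eq_prod_range (fun i => Fintype.card K ^ 3 - Fintype.card K ^ i) 3, hK] at h3
    set p := ringChar K
    have hq0 : p ^ f ≠ 0 := pow_ne_zero _ hr.ne_zero
    have hpq : p ∣ p ^ f := dvd_pow_self p (by omega)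
    have hd1 : ¬ p ∣ p ^ f - 1 := by
      have := nd_sub (k := 1) hr hpq hq0 one_ne_zero
      rwa [pow_one] at this
    have e1 : ∏ i ∈ Finset.range 3, ((p ^ f) ^ 3 - (p ^ f) ^ i) =
        p ^ (f * 3) * ∏ i ∈ Finset.range 3, ((p ^ f) ^ (3 - i) - 1) := by
      rw [show f * 3 = f * ∑ i ∈ Finset.range 3, i by rw [Finset.sum_range_id], Finset.mul_sum,
        ← Finset.prod_pow_eq_pow_sum, ← Finset.prod_mul_distrib]
      apply Finset.prod_congr rfl
      intro i hi
      rw [Finset.mem_range] at hi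
      rw [pow_mul, Nat.mul_sub, ← pow_add, mul_one]
      congr 2
      omega
    rw [e1, ← mul_assoc, ← Nat.card_congr e.toEquiv] at h3
    intro Q
    rw [card_sylow hr h3 (nd_mul hr (nd_of_dvd hd1 (Nat.gcd_dvd_right _ _)) hd1) ?_ Q, hK, pow_mul]
    apply nd_prod hr
    intro i hi
    rw [Finset.mem_range] at hi
    exact nd_sub hr hpq hq0 (by omega)
  · have h1 := S0813.result (F := K) (ringChar K) f hf hK 3 (by omega) (by omega)
    rw [if_neg (by omega), H934.OutCl.card_pgl (by omega), ← mul_assoc] at h1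
    have h2 := card_out_of_aut (na_congr e hna) h1
    rw [card_out_congr e, h2, hK]

theorem psl_three {A : Type u} [Group A] [Finite A] {S : Subgroup A} (h : AS A S) {p F : ℕ} (hp : p.Prime)
    (hF : F ≠ 0) (h3 : 3 ≤ p ^ F) (hD : charDegrees A ⊆ DT (p ^ F)) (hS : IsPSLThree S)
    (htwo : ∀ (K : Type) [Field K] [Fintype K], Fintype.card K ^ 2 + Fintype.card K ∈
      charDegrees (ProjectiveSpecialLinearGroup (Fin 3) K)) :
    ∃ (K : Type) (_ : Field K) (_ : Fintype K), Fintype.card K = p ^ F ∧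
      Nonempty (S ≃* ProjectiveSpecialLinearGroup (Fin 3) K) := by
  have := h.normal
  have := h.simple
  obtain ⟨K, i1, i2, h3K, ⟨e⟩⟩ := hS
  obtain ⟨r, f, hr, hf, hK, hLie, hQ, hO⟩ := psl_three_data h.nonab e
  have hSt := hD (st_mem h hr hLie hQ)
  have htr : ∀ d, d ∈ charDegrees (ProjectiveSpecialLinearGroup (Fin 3) K) → d ∈ charDegrees S := fun d hd =>
    H681.DegBasic.charDegrees_comp e.toMonoidHom e.surjective hd
  have hs : Fintype.card K ^ 3 = r ^ (f * 3) := by rw [hK, pow_mul]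
  rw [hs] at hSt
  rcases dt_prime_pow hr (by omega) hp hF h3 hSt with ⟨h1, h2⟩ | h1 | ⟨h1, h2⟩
  · refine ⟨K, i1, i2, ?_, ⟨e⟩⟩
    rw [hK, h1]
    congr 1
    omega
  · exfalso
    -- `q'³ = n`
    rw [← hs] at h1
    obtain ⟨x, hx, hx', hxi⟩ := exists_mult (A := A) (htr _ (htwo K))
    set s := Fintype.card K with hsd
    have hrs : r ∣ s := by rw [hK]; exact dvd_pow_self r (by omega)
    have hrn : r ∣ (p ^ F) ^ 2 + p ^ F + 1 := by rw [← h1]; exact hrs.trans (dvd_pow_self s (by norm_num))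
    have hr3 : r ≠ 3 := by
      rintro rfl
      apply not_nine (q := p ^ F)
      rw [← h1]
      have h9 : 3 ^ 3 ∣ s ^ 3 := pow_dvd_pow_of_dvd hrs 3
      exact (show 9 ∣ 3 ^ 3 by norm_num).trans h9
    have hsx : s ^ 2 + s = s * (s + 1) := by ring
    have hrx : r ∣ x := (hrs.mul_right (s + 1)).trans (by rw [← hsx]; exact hx')
    have hnx := n_dvd_of_prime (by omega) hr hr3 hrn (hD hx) hrx
    rw [← h1] at hnx
    obtain ⟨k, hk⟩ := hx'
    have hs0 : 0 < s ^ 2 + s := by positivity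
    rw [hk, Nat.mul_div_cancel_left _ hs0] at hxi
    -- `s² ∣ 3 (s + 1) k`
    have h4 : s ^ 2 ∣ 3 * ((s + 1) * k) := by
      have h5 : s * s ^ 2 ∣ s * (3 * ((s + 1) * k)) := by
        have e1 : s * s ^ 2 = s ^ 3 := by ring
        have e2 : s * (3 * ((s + 1) * k)) = 3 * x := by rw [hk]; ring
        rw [e1, e2]
        exact hnx
      exact Nat.dvd_of_mul_dvd_mul_left (by omega) h5
    have hcop : Nat.Coprime (s ^ 2) (3 * (s + 1)) := by
      apply Nat.Coprime.pow_left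
      rw [Nat.coprime_mul_iff_right]
      constructor
      · rw [hK]
        apply Nat.Coprime.pow_left
        rw [Nat.coprime_primes hr Nat.prime_three]
        exact hr3
      · exact (Nat.coprime_self_add_right (m := s) (n := 1)).2 (Nat.coprime_one_right s)
    have h5 : s ^ 2 ∣ k := by
      rw [← mul_assoc] at h4
      exact hcop.dvd_of_dvd_mul_left h4
    have h6 : s ^ 2 ∣ 2 * f * Nat.gcd 3 (r ^ f - 1) := by
      rw [← hO]
      exact (h5.trans hxi).trans h.index_dvd_out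
    have h7 : Nat.gcd 3 (r ^ f - 1) ≤ 3 := Nat.gcd_le_left _ (by norm_num)
    have h8 : 0 < Nat.gcd 3 (r ^ f - 1) := Nat.gcd_pos_of_pos_left _ (by norm_num)
    have h9 := Nat.le_of_dvd (by positivity) h6
    have h2f : 2 * f ≤ s := by rw [hK]; exact H691.Fam.two_mul_le_pow hr.two_le hf
    have h10 : 2 * f * Nat.gcd 3 (r ^ f - 1) ≤ s * 3 := Nat.mul_le_mul h2f h7
    have h11 : s ≤ 3 := by nlinarith
    have h12 : s = 3 := by omega
    apply hr3
    rw [h12] at hK
    exact (Nat.prime_dvd_prime_iff_eq hr Nat.prime_three).1 (h12 ▸ hrs)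
  · exfalso
    have : 27 ≤ Fintype.card K ^ 3 := Nat.pow_le_pow_left h3K 3
    omega

/-- **Lie type**: the socle is `PSL₃(q)`. -/
theorem lie3 {A : Type u} [Group A] [Finite A] {S : Subgroup A} (h : AS A S) {p F : ℕ} (hp : p.Prime)
    (hF : F ≠ 0) (h3 : 3 ≤ p ^ F) (hpS : p ∣ Nat.card S) (hD : charDegrees A ⊆ DT (p ^ F)) (hIM : IMS S)
    (h8 : ¬ Nonempty (S ≃* alternatingGroup (Fin 8))) {r : ℕ} (hr : r.Prime) (hL : IsLieTypeChar r S)
    (htwo : ∀ (K : Type) [Field K] [Fintype K], Fintype.card K ^ 2 + Fintype.card K ∈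
      charDegrees (ProjectiveSpecialLinearGroup (Fin 3) K)) :
    ∃ (K : Type) (_ : Field K) (_ : Fintype K), Fintype.card K = p ^ F ∧
      Nonempty (S ≃* ProjectiveSpecialLinearGroup (Fin 3) K) := by
  have := h.simple
  rcases lie_conc3 hr h.nonab hL with h1 | h1 | h1 | h1
  · exact (psl_two_false h hp hF h3 hD h1).elim
  · exact psl_three h hp hF h3 hD h1 htwo
  · exact absurd h1 h8
  · obtain ⟨s, out, -, h2, -, h4, h5'⟩ := h1
    exact (false_of_NF3 h hp hF h3 hpS hD hIM (st_mem h hr hL h2) h4 h5').elim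

end Cfsg.Agent.H691.T3.Lie
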