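import Cfsg.Agent.H691.ExtChar
import Cfsg.Agent.H691.T3.LieAll

/-!
# The simple factor is normalised (helper691)

`kone3` : if the degrees of `G` are in `DT q`, `q ≥ 3`, `R₀ ⊲ N` with `N / R₀` nonabelian simple, and every almost
simple group with socle `N / R₀` (and abelian top) has an extendible character, then `R₀` is normalised by `G`.
-/

set_option autoImplicit false

open scoped commutatorElement

namespace Cfsg.Agent.H691.T3.KOne

open Cfsg Cfsg.Agent.Characters Cfsg.Agent.Characters.Core Cfsg.Agent.H681.DegBasic Cfsg.Agent.H686.CharKit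
open Cfsg.Agent.H691.KOne Cfsg.Agent.H691.ExtChar

universe u

/-- There is an irreducible character of `A` of degree at least three which is irreducible on `S`. -/
def HasExt3 (A : Type u) [Group A] (S : Subgroup A) : Prop :=
  ∃ χ : A → ℂ, IsIrrCharacter A χ ∧ IsIrrCharacter S (fun s : S => χ s) ∧ ∃ n : ℕ, χ 1 = n ∧ 3 ≤ n

/-- Another form. -/
def HasExtC (A : Type u) [Group A] (S : Subgroup A) [Finite S] : Prop :=
  ∃ (χ : A → ℂ) (α : S → ℂ), IsIrrCharacter A χ ∧ IsIrrCharacter S α ∧ H672.Over S.subtype χ α ∧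
    charDegree χ ≤ charDegree α ∧ 3 ≤ charDegree α

theorem hasExtC_of_ext {A : Type u} [Group A] [Finite A] {S : Subgroup A} (h : HasExt3 A S) : HasExtC A S := by
  classical
  obtain ⟨χ, hχ, hχS, n, h1, h3⟩ := h
  have := Fintype.ofFinite S
  have h2 : charDegree (fun s : S => χ s) = n := H672.charDegree_of_eq h1
  have h4 : charDegree χ = n := H672.charDegree_of_eq h1
  refine ⟨χ, fun s : S => χ s, hχ, hχS, ?_, ?_, ?_⟩
  · rw [H672.over_subtype_iff, Cfsg.Agent.Characters.Core.classInner_irr_self hχS]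
    exact one_ne_zero
  · rw [h2, h4]
  · rw [h2]
    exact h3

section

variable {K : Type u} [Group K]

/-- A maximal normal subgroup with nonabelian quotient is prime. -/
theorem MN.prime {M L₁ L₂ : Subgroup K} (h : MN M) (h₁ : L₁.Normal) (h₂ : L₂.Normal) (hle : L₁ ⊓ L₂ ≤ M) :
    L₁ ≤ M ∨ L₂ ≤ M := by
  by_contra hcon
  push Not at hcon
  have hn := h.normal
  have e : ∀ L : Subgroup K, L.Normal → ¬ L ≤ M → M ⊔ L = ⊤ := by
    intro L hL hLM
    have := h.normal
    rcases h.max (M ⊔ L) inferInstance le_sup_left with h2 | h2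
    · exact absurd (le_sup_right.trans (le_of_eq h2)) hLM
    · exact h2
  have e₁ := e L₁ h₁ hcon.1
  have e₂ := e L₂ h₂ hcon.2
  obtain ⟨a, b, hab⟩ := h.na
  apply hab
  have ha : a ∈ M ⊔ L₁ := by rw [e₁]; exact Subgroup.mem_top _
  have hb : b ∈ M ⊔ L₂ := by rw [e₂]; exact Subgroup.mem_top _
  rw [Subgroup.mem_sup_of_normal_left] at ha hb
  obtain ⟨m, hm, a₁, ha₁, rfl⟩ := ha
  obtain ⟨m', hm', b₂, hb₂, rfl⟩ := hb
  have h5 : a₁ * b₂ * a₁⁻¹ * b₂⁻¹ ∈ M := by
    apply hle
    refine ⟨?_, ?_⟩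
    · have h6 : a₁ * b₂ * a₁⁻¹ * b₂⁻¹ = a₁ * (b₂ * a₁⁻¹ * b₂⁻¹) := by group
      rw [h6]
      exact L₁.mul_mem ha₁ (h₁.conj_mem _ (L₁.inv_mem ha₁) b₂)
    · exact L₂.mul_mem (h₂.conj_mem _ hb₂ a₁) (L₂.inv_mem hb₂)
  rw [← QuotientGroup.eq_one_iff] at h5 ⊢
  have hm1 : (QuotientGroup.mk m : K ⧸ M) = 1 := (QuotientGroup.eq_one_iff m).2 hm
  have hm2 : (QuotientGroup.mk m' : K ⧸ M) = 1 := (QuotientGroup.eq_one_iff m').2 hm'
  simp only [QuotientGroup.mk_mul, QuotientGroup.mk_inv, hm1, hm2, one_mul] at h5 ⊢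
  exact h5

/-- Products of characters with different maximal normal kernels are irreducible. -/
theorem irr_prod [Finite K] {ι : Type*} (α : ι → IrrCharacter K) (hMN : ∀ i, MN (chKer (α i)))
    (hne : ∀ i j, i ≠ j → chKer (α i) ≠ chKer (α j)) (s : Finset ι) :
    IsIrrCharacter K (∏ i ∈ s, (α i : K → ℂ)) ∧ ∃ L : Subgroup K, L.Normal ∧
      (∀ l ∈ L, (∏ i ∈ s, (α i : K → ℂ)) l = (∏ i ∈ s, (α i : K → ℂ)) 1) ∧
      ∀ M : Subgroup K, MN M → L ≤ M → ∃ i ∈ s, chKer (α i) ≤ M := by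
  classical
  induction s using Finset.induction_on with
  | empty =>
    refine ⟨?_, ⊤, inferInstance, fun l _ => by simp, fun M hM h => ?_⟩
    · rw [Finset.prod_empty]
      exact isIrr_one
    · exact absurd (top_le_iff.1 h) hM.ne_top
  | insert a s ha ih =>
    obtain ⟨h1, L, hL, h2, h3⟩ := ih
    have hsup : L ⊔ chKer (α a) = ⊤ := by
      have hn := (hMN a).normal
      rcases (hMN a).max (L ⊔ chKer (α a)) inferInstance le_sup_right with h4 | h4
      · exfalso
        obtain ⟨i, hi, h5⟩ := h3 _ (hMN a) (le_sup_left.trans (le_of_eq h4))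
        rcases (hMN i).max _ hn h5 with h6 | h6
        · exact hne i a (fun h => ha (h ▸ hi)) h6.symm
        · exact (hMN a).ne_top h6
      · exact h4
    have h4 : IsIrrCharacter L ((α a : K → ℂ) ∘ L.subtype) := by
      have hn := (hMN a).normal
      exact isIrr_restrict_of_ker L (chKer (α a)) hsup (α a).2 (fun z hz => hz)
    have h5 := irr_mul L (α a).2 h4 h1 h2
    rw [Finset.prod_insert ha, mul_comm]
    refine ⟨h5, L ⊓ chKer (α a), ?_, ?_, ?_⟩
    · have hn := (hMN a).normal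
      infer_instance
    · rintro l ⟨hl1, hl2⟩
      rw [Pi.mul_apply, Pi.mul_apply, h2 l hl1]
      have h6 : (α a : K → ℂ) l = (α a : K → ℂ) 1 := hl2
      rw [h6]
    · intro M hM h6
      rcases MN.prime hM hL (hMN a).normal h6 with h7 | h7
      · obtain ⟨i, hi, h8⟩ := h3 M hM h7
        exact ⟨i, Finset.mem_insert_of_mem hi, h8⟩
      · exact ⟨a, Finset.mem_insert_self _ _, h7⟩

end

/-! ### numbers -/

theorem sq_le {k b : ℕ} (hk : 2 ≤ k) (hb : 3 ≤ b) : (k * b) ^ 2 ≤ 4 * b ^ k := by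
  obtain ⟨j, rfl⟩ : ∃ j, k = j + 2 := ⟨k - 2, by omega⟩
  have h1 : (j + 2) ^ 2 ≤ 4 * b ^ j := by
    clear hk
    induction j with
    | zero => norm_num
    | succ j ih =>
      have h2 : 3 * (4 * b ^ j) ≤ 4 * b ^ (j + 1) := by
        rw [pow_succ]
        nlinarith [Nat.zero_le (b ^ j)]
      have h3 : (j + 1 + 2) ^ 2 ≤ 3 * (j + 2) ^ 2 := by nlinarith [Nat.zero_le j, Nat.zero_le (j ^ 2)]
      linarith
  calc ((j + 2) * b) ^ 2 = (j + 2) ^ 2 * b ^ 2 := by ring
    _ ≤ 4 * b ^ j * b ^ 2 := Nat.mul_le_mul_right _ h1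
    _ = 4 * b ^ (j + 2) := by ring

theorem dt_three {d : ℕ} (h : d ∈ DT 3) : d = 1 ∨ d = 12 ∨ d = 27 ∨ d = 26 ∨ d = 16 ∨ d = 13 ∨ d = 39 := by
  rcases h with h | h | h | h | h | ⟨-, h | h⟩ | ⟨h5, h⟩ | ⟨h3, h | h⟩ <;> omega

theorem dt_four {d : ℕ} (h : d ∈ DT 4) :
    d = 1 ∨ d = 20 ∨ d = 64 ∨ d = 63 ∨ d = 45 ∨ d = 21 ∨ d = 84 ∨ d = 35 ∨ d = 15 := by
  rcases h with h | h | h | h | h | ⟨-, h | h⟩ | ⟨h5, h⟩ | ⟨h3, h | h⟩ <;> omega

theorem dt_ge {q d : ℕ} (hq : 5 ≤ q) (h : d ∈ DT q) (h1 : d ≠ 1) : q ^ 2 + q ≤ d := by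
  have hc := cube_sub q (by omega)
  obtain ⟨t, rfl⟩ : ∃ t, q = t + 5 := ⟨q - 5, by omega⟩
  rw [show t + 5 - 1 = t + 4 by omega] at hc
  have h3 : (t + 5) ^ 2 + (t + 5) ≤ (t + 5) ^ 3 := by nlinarith [Nat.zero_le t, Nat.zero_le (t ^ 2), Nat.zero_le (t ^ 3)]
  rcases h with h | h | h | h | h | ⟨-, h | h⟩ | ⟨-, h⟩ | ⟨h31, h | h⟩
  · exact absurd h h1
  · omega
  · omega
  · nlinarith
  · rw [h, show t + 5 - 1 = t + 4 by omega]
    nlinarith [Nat.zero_le t, Nat.zero_le (t ^ 2), Nat.zero_le (t ^ 3)]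
  · omega
  · rw [h]
    nlinarith
  · rw [h]
    nlinarith
  · nlinarith
  · -- `3 ∣ q - 1` so `q ≥ 7`
    rw [show t + 5 - 1 = t + 4 by omega] at h h31
    obtain ⟨u, rfl⟩ : ∃ u, t = u + 2 := ⟨t - 2, by omega⟩
    nlinarith [Nat.zero_le u, Nat.zero_le (u ^ 2), Nat.zero_le (u ^ 3)]

theorem not_pow {b k n : ℕ} (hk : 2 ≤ k) (hb : 3 ≤ b) (h : b ^ k = n) (hn : n < 100)
    (h2 : ∀ b < 10, ∀ k < 7, 2 ≤ k → 3 ≤ b → b ^ k ≠ n) : False := by
  have hk7 : k < 7 := by
    by_contra hcon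
    have h1 : 3 ^ 7 ≤ b ^ k := (Nat.pow_le_pow_left hb 7).trans (Nat.pow_le_pow_right (by omega) (by omega))
    norm_num at h1
    omega
  have hb10 : b < 10 := by
    by_contra hcon
    have h1 : 10 ^ 2 ≤ b ^ k := (Nat.pow_le_pow_left (by omega) 2).trans (Nat.pow_le_pow_right (by omega) hk)
    norm_num at h1
    omega
  exact h2 b hb10 k hk7 hk hb h

theorem numeric3 {q k b x d : ℕ} (hq : 3 ≤ q) (hk : 2 ≤ k) (hb : 3 ≤ b) (hx : x ∈ DT q) (hx1 : x ≠ 1)
    (hxk : x ≤ k * b) (hbx : b ∣ x) (hd : d ∈ DT q) (hd0 : d ≠ 0) (hbd : b ^ k ∣ d) : False := by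
  have h1 : x ^ 2 ≤ 4 * b ^ k := (Nat.pow_le_pow_left hxk 2).trans (sq_le hk hb)
  have h2 := Nat.le_of_dvd (Nat.pos_of_ne_zero hd0) hbd
  rcases Nat.lt_or_ge q 5 with h5 | h5
  · have h34 : q = 3 ∨ q = 4 := by omega
    rcases h34 with rfl | rfl
    · have hx' := dt_three hx
      have hx12 : 12 ≤ x := by omega
      have h3 : 36 ≤ b ^ k := by nlinarith
      have hd' : d = 39 := by
        rcases dt_three hd with h | h | h | h | h | h | h <;> omega
      subst hd'
      have h4 : b ^ k = 39 := by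
        obtain ⟨c, hc⟩ := hbd
        rcases c with _ | _ | c
        · omega
        · omega
        · exfalso
          have : b ^ k * 2 ≤ b ^ k * (c + 1 + 1) := Nat.mul_le_mul_left _ (by omega)
          omega
      exact not_pow hk hb h4 (by norm_num) (by decide)
    · have hx' := dt_four hx
      have hx15 : 15 ≤ x := by omega
      have h3 : 57 ≤ b ^ k := by nlinarith
      have hbk : b ^ k = d := by
        obtain ⟨c, hc⟩ := hbd
        have h84 : d ≤ 84 := by rcases dt_four hd with h | h | h | h | h | h | h | h | h <;> omega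
        rcases c with _ | _ | c
        · omega
        · omega
        · exfalso
          have : b ^ k * 2 ≤ b ^ k * (c + 1 + 1) := Nat.mul_le_mul_left _ (by omega)
          omega
      rcases dt_four hd with h | h | h | h | h | h | h | h | h
      · omega
      · omega
      · -- `64`
        rw [h] at hbk
        have hk7 : k < 7 := by
          by_contra hcon
          have h1 : 3 ^ 7 ≤ b ^ k := (Nat.pow_le_pow_left hb 7).trans (Nat.pow_le_pow_right (by omega) (by omega))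
          norm_num at h1
          omega
        have hb10 : b < 10 := by
          by_contra hcon
          have h1 : 10 ^ 2 ≤ b ^ k := (Nat.pow_le_pow_left (by omega) 2).trans (Nat.pow_le_pow_right (by omega) hk)
          norm_num at h1
          omega
        have h8 : (b = 8 ∧ k = 2) ∨ (b = 4 ∧ k = 3) := by
          revert hbk
          interval_cases b <;> interval_cases k <;> simp
        rcases h8 with ⟨rfl, rfl⟩ | ⟨rfl, rfl⟩
        · have : x = 15 ∨ x = 16 := by omega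
          omega
        · omega
      · exact not_pow hk hb (hbk.trans h) (by norm_num) (by decide)
      · omega
      · omega
      · exact not_pow hk hb (hbk.trans h) (by norm_num) (by decide)
      · omega
      · omega
  · have h3 := dt_ge h5 hx hx1
    have h4 := dt_le (by omega) hd
    have h6 : (q ^ 2 + q) ^ 2 ≤ 4 * ((q + 1) * (q ^ 2 + q + 1)) := by
      have := Nat.pow_le_pow_left h3 2
      omega
    obtain ⟨t, rfl⟩ : ∃ t, q = t + 5 := ⟨q - 5, by omega⟩
    nlinarith [Nat.zero_le t, Nat.zero_le (t ^ 2), Nat.zero_le (t ^ 3), Nat.zero_le (t ^ 4)]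

section

variable {G : Type u} [Group G] [Finite G] (N : Subgroup G) [hN : N.Normal]

/-- **The simple factor is unique.** -/
theorem top_of_ext3 {q : ℕ} (hq : 3 ≤ q) (hD : charDegrees G ⊆ DT q) (α : IrrCharacter N)
    (hs : IsSimpleGroup (N ⧸ chKer α)) (hna : ¬ IsMulCommutative (N ⧸ chKer α))
    {χT : TT N α → ℂ} (hχT : IsIrrCharacter (TT N α) χT)
    (hov : H672.Over (Subgroup.inclusion (le_TT N α)) χT α)
    (hc : charDegree χT ≤ charDegree (α : N → ℂ)) (hb : 3 ≤ charDegree (α : N → ℂ)) : TT N α = ⊤ := by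
  classical
  have := Fintype.ofFinite G
  have := Fintype.ofFinite N
  by_contra hne
  set b := charDegree (α : N → ℂ) with hbdef
  have hα1 : (α : N → ℂ) 1 = b := (charDegree_irr α).symm
  -- a character of `G` over `χT`
  obtain ⟨χ, hχ, hoχ⟩ := H672.exists_over_subtype (TT N α) hχT
  have hle : charDegree χ ≤ (TT N α).index * charDegree χT := by
    have := Fintype.ofFinite (TT N α)
    exact H621.SymDeg.degree_le_index_mul (TT N α) hχ hχT ((H672.over_subtype_iff _ χ χT).1 hoχ)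
      (H672.coe_charDegree hχ).symm (H672.coe_charDegree hχT).symm
  have hαχ : H672.Over N.subtype χ (α : N → ℂ) := by
    have h1 : H672.Over ((TT N α).subtype.comp (Subgroup.inclusion (le_TT N α))) χ (α : N → ℂ) :=
      (H672.over_comp_iff _ _ (isIrr_isCharacter hχ) α.2).2 ⟨χT, hχT, hoχ, hov⟩
    exact h1
  have hbχ : b ∣ charDegree χ := (H672.charDegree_dvd_of_over N hχ α.2 hαχ).1
  have hχpos := H672.charDegree_pos hχ
  have hbχ' := Nat.le_of_dvd hχpos hbχ
  -- the conjugates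
  let ι := G ⧸ TT N α
  have : Fintype ι := Fintype.ofFinite _
  let a : ι → IrrCharacter N := fun i => cj N (Quotient.out i : G)⁻¹ α
  have hR : MN (chKer α) := MN.of_simple _ hs hna
  have hMN : ∀ i, MN (chKer (a i)) := by
    intro i
    rw [ker_cj]
    exact hR.comap _
  have hneq : ∀ i j, i ≠ j → chKer (a i) ≠ chKer (a j) := by
    intro i j hij h
    apply hij
    rw [← Quotient.out_eq i, ← Quotient.out_eq j]
    change (QuotientGroup.mk (Quotient.out i : G) : ι) = QuotientGroup.mk (Quotient.out j : G)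
    rw [QuotientGroup.eq]
    intro n
    have h1 : ∀ m : N, (MulAut.conjNormal (Quotient.out i : G)⁻¹ : MulAut N) m ∈ chKer α ↔
        (MulAut.conjNormal (Quotient.out j : G)⁻¹ : MulAut N) m ∈ chKer α := by
      intro m
      rw [← mem_ker_cj, ← mem_ker_cj]
      change m ∈ chKer (a i) ↔ m ∈ chKer (a j)
      rw [h]
    have h2 := h1 ((MulAut.conjNormal (Quotient.out j : G) : MulAut N) n)
    rw [← MulAut.mul_apply, ← map_mul, ← MulAut.mul_apply, ← map_mul, inv_mul_cancel, map_one] at h2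
    exact h2
  obtain ⟨hirr, -⟩ := irr_prod a hMN hneq Finset.univ
  have hdeg : charDegree (∏ i : ι, (a i : N → ℂ)) = b ^ (TT N α).index := by
    apply H672.charDegree_of_eq
    have h1 : ∀ i : ι, (a i : N → ℂ) 1 = b := by
      intro i
      change (cj N _ α : N → ℂ) 1 = b
      rw [cj_apply, map_one, hα1]
    rw [Finset.prod_apply, Finset.prod_congr rfl fun i _ => h1 i, Finset.prod_const, Finset.card_univ,
      ← Nat.card_eq_fintype_card, ← Subgroup.index_eq_card]
    push_cast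
    rfl
  obtain ⟨χ', hχ', ho'⟩ := H672.exists_over_subtype N hirr
  have h3 := (H672.charDegree_dvd_of_over N hχ' hirr ho').1
  rw [hdeg] at h3
  have h7 : 2 ≤ (TT N α).index := by
    have h8 : (TT N α).index ≠ 0 := Subgroup.index_ne_zero_of_finite
    have h9 : (TT N α).index ≠ 1 := fun h => hne (Subgroup.index_eq_one.1 h)
    omega
  exact numeric3 hq h7 hb (hD ⟨⟨χ, hχ⟩, rfl⟩) (by change charDegree χ ≠ 1; omega)
    (hle.trans (Nat.mul_le_mul_left _ hc)) hbχ (hD ⟨⟨χ', hχ'⟩, rfl⟩) (H672.charDegree_pos hχ').ne' h3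

end

section

variable {G : Type u} [Group G] (N : Subgroup G) [hN : N.Normal]

theorem exists_char3 [Finite G] (hcomm : commutator G ≤ N) (R : Subgroup N) [hR : R.Normal]
    (hs : IsSimpleGroup (N ⧸ R)) (hna : ¬ IsMulCommutative (N ⧸ R))
    (hE : ∀ (A : Type u) [Group A] [Finite A] (S : Subgroup A), AS A S → HasExt3 A S) :
    ∃ (α : IrrCharacter N) (χ : TR N R → ℂ), chKer α = R ∧ IsIrrCharacter (TR N R) χ ∧
      H672.Over (Subgroup.inclusion (le_TR N R)) χ (α : N → ℂ) ∧
      charDegree χ ≤ charDegree (α : N → ℂ) ∧ 3 ≤ charDegree (α : N → ℂ) := by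
  classical
  set Y := TR N R with hY
  set N' : Subgroup Y := N.subgroupOf Y with hN'
  set R' : Subgroup Y := (R.map N.subtype).subgroupOf Y with hR'
  have i1 : N'.Normal := inferInstance
  have hmem : ∀ (n : N), (n : G) ∈ R.map N.subtype ↔ n ∈ R := by
    intro n
    constructor
    · rintro ⟨m, hm, h⟩
      have : m = n := Subtype.ext h
      rwa [← this]
    · exact fun h => ⟨n, h, rfl⟩
  have i2 : R'.Normal := by
    refine ⟨fun r hr y => ?_⟩
    rw [hR', Subgroup.mem_subgroupOf] at hr ⊢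
    obtain ⟨n, hn, hnr⟩ := hr
    have h1 := (y.2 n).2 hn
    refine ⟨_, h1, ?_⟩
    rw [Subgroup.coe_subtype, MulAut.conjNormal_apply]
    have hnr' : (n : G) = (r : G) := hnr
    rw [hnr']
    rfl
  have hRN : R' ≤ N' := by
    intro y hy
    rw [hR', Subgroup.mem_subgroupOf] at hy
    rw [hN', Subgroup.mem_subgroupOf]
    obtain ⟨n, -, h⟩ := hy
    rw [← h]
    exact n.2
  let eN : N' ≃* N := Subgroup.subgroupOfEquivOfLe (le_TR N R)
  have heN : ∀ x : N', ((eN x : N) : G) = ((x : Y) : G) := fun x => rfl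
  have hmap : (R'.subgroupOf N').map eN.toMonoidHom = R := by
    ext n
    constructor
    · rintro ⟨x, hx, rfl⟩
      have h1 : ((x : Y) : G) ∈ R.map N.subtype := hx
      rw [← heN] at h1
      exact (hmem _).1 h1
    · intro hn
      refine ⟨eN.symm n, ?_, by simp⟩
      change (((eN.symm n : N') : Y) : G) ∈ R.map N.subtype
      rw [← heN, eN.apply_symm_apply]
      exact (hmem _).2 hn
  let eQ : (N' ⧸ R'.subgroupOf N') ≃* (N ⧸ R) := QuotientGroup.congr _ _ eN hmap
  have hs' : IsSimpleGroup (N' ⧸ R'.subgroupOf N') := eQ.isSimpleGroup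
  have hna' : ¬ IsMulCommutative (N' ⧸ R'.subgroupOf N') := fun hc =>
    hna ⟨⟨fun a b => eQ.symm.injective (by rw [map_mul, map_mul]; exact hc.is_comm.comm _ _)⟩⟩
  have hcomm' : commutator Y ≤ N' := by
    rw [commutator_def, Subgroup.commutator_le]
    intro a _ b _
    rw [hN', Subgroup.mem_subgroupOf]
    apply hcomm
    exact Subgroup.commutator_mem_commutator (Subgroup.mem_top (a : G)) (Subgroup.mem_top (b : G))
  let K := AExt.KK N' R'
  let π : Y →* Y ⧸ K := QuotientGroup.mk' K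
  let S : Subgroup (Y ⧸ K) := N'.map π
  obtain ⟨hAS, e, he⟩ : AS (Y ⧸ K) S ∧ ∃ e : (N' ⧸ R'.subgroupOf N') ≃* S,
      ∀ n : N', ((e (QuotientGroup.mk n) : S) : Y ⧸ K) = π n := AExt.exists_AS hRN hs' hna' hcomm'
  obtain ⟨χ, θ, hχ, hθ, ho, hc, hb⟩ := hasExtC_of_ext (hE _ S hAS)
  -- the projection of `N` onto `S`
  let g : N →* S := (e.toMonoidHom.comp (QuotientGroup.mk' (R'.subgroupOf N'))).comp eN.symm.toMonoidHom
  have hg : Function.Surjective g :=
    (e.surjective.comp (QuotientGroup.mk'_surjective _)).comp eN.symm.surjective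
  have hgval : ∀ n : N, ((g n : S) : Y ⧸ K) = π (Subgroup.inclusion (le_TR N R) n) := by
    intro n
    have h1 := he (eN.symm n)
    exact h1
  have hgker : ∀ n : N, g n = 1 ↔ n ∈ R := by
    intro n
    have h1 : g n = e (QuotientGroup.mk (eN.symm n)) := rfl
    rw [h1, EmbeddingLike.map_eq_one_iff, QuotientGroup.eq_one_iff, Subgroup.mem_subgroupOf]
    exact hmem n
  have hirr : IsIrrCharacter N (θ ∘ g) := isIrr_comp g hg hθ
  have hnaS : ¬ ∀ a b : S, a * b = b * a := fun h => hAS.nonab ⟨⟨h⟩⟩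
  have hsS := hAS.simple
  have hdeg : charDegree (θ ∘ g) = charDegree θ := by
    apply H672.charDegree_of_eq
    rw [Function.comp, map_one, H672.coe_charDegree hθ]
  have hθ1 : θ 1 ≠ 1 := by
    intro h
    have h1 : charDegree θ = 1 := H672.charDegree_of_eq (by rw [h]; simp)
    omega
  refine ⟨⟨θ ∘ g, hirr⟩, χ ∘ π, ?_, isIrr_comp π (QuotientGroup.mk'_surjective _) hχ, ?_, ?_, ?_⟩
  · ext n
    rw [mem_chKer, ← hgker n]
    constructor
    · intro h
      have h1 : θ (g n) = θ (g 1) := h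
      rw [map_one] at h1
      exact H681.SimpleChar.eq_one_of_norm_eq hnaS hθ hθ1 (by rw [h1])
    · intro h
      change θ (g n) = θ (g 1)
      rw [h, map_one]
  · have h1 : H672.Over (S.subtype.comp g) χ (θ ∘ g) := by
      refine (H672.over_comp_iff _ _ (isIrr_isCharacter hχ) hirr).2 ⟨θ, hθ, ho, ?_⟩
      have := Fintype.ofFinite N
      rw [H672.over_iff, classInner_irr_self hirr]
      exact one_ne_zero
    have := Fintype.ofFinite N
    rw [H672.over_iff] at h1 ⊢
    have h2 : (χ ∘ π) ∘ (Subgroup.inclusion (le_TR N R)) = χ ∘ (S.subtype.comp g) := by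
      funext n
      change χ (π (Subgroup.inclusion (le_TR N R) n)) = χ ((g n : S) : Y ⧸ K)
      rw [hgval]
    rw [h2]
    exact h1
  · have h1 : charDegree (χ ∘ π) = charDegree χ := by
      apply H672.charDegree_of_eq
      rw [Function.comp, map_one, H672.coe_charDegree hχ]
    change charDegree (χ ∘ π) ≤ charDegree (θ ∘ g)
    rw [h1, hdeg]
    exact hc
  · change 3 ≤ charDegree (θ ∘ g)
    rw [hdeg]
    exact hb

/-- **The simple factor is normalised.** -/
theorem kone3 [Finite G] (hcomm : commutator G ≤ N) (R : Subgroup N) [hR : R.Normal]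
    (hs : IsSimpleGroup (N ⧸ R)) (hna : ¬ IsMulCommutative (N ⧸ R))
    (hE : ∀ (A : Type u) [Group A] [Finite A] (S : Subgroup A), AS A S → HasExt3 A S)
    {q : ℕ} (hq : 3 ≤ q) (hD : charDegrees G ⊆ DT q) : (R.map N.subtype).Normal := by
  obtain ⟨α, χ, hαR, hχ, ho, hc, hb⟩ := exists_char3 N hcomm R hs hna hE
  subst hαR
  have h1 : TT N α = ⊤ := top_of_ext3 N hq hD α hs hna (χT := χ) hχ ho hc hb
  refine ⟨fun x hx g => ?_⟩
  obtain ⟨n, hn, rfl⟩ := hx
  have hg : g ∈ TT N α := by rw [h1]; exact Subgroup.mem_top g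
  refine ⟨_, (hg n).2 hn, ?_⟩
  rw [Subgroup.coe_subtype, MulAut.conjNormal_apply]

end

end Cfsg.Agent.H691.T3.KOne
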