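import Cfsg.Agent.H691.T3.Types
import Cfsg.Agent.H691.Fam3

/-!
# Arithmetic for the identification of the socle (helper691)

* `dt_prime_pow` : the prime powers in `DT q`;
* `NF3 s ord out` : the arithmetic condition excluding a group of Lie type;
* criteria for `NF3`.
-/

set_option autoImplicit false

namespace Cfsg.Agent.H691.T3

open Cfsg.Agent.H691.Arith

/-- The prime divisors of `n = q² + q + 1` and of `q - 1`: only `3` is common. -/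
theorem dvd_three {q l : ℕ} (hq : 1 ≤ q) (h1 : l ∣ q ^ 2 + q + 1) (h2 : l ∣ q - 1) : l ∣ 3 := by
  obtain ⟨a, rfl⟩ : ∃ a, q = a + 1 := ⟨q - 1, by omega⟩
  rw [Nat.add_sub_cancel] at h2
  have h3 : (a + 1) ^ 2 + (a + 1) + 1 = a * (a + 3) + 3 := by ring
  rw [h3] at h1
  exact (Nat.dvd_add_right (h2.mul_right _)).1 h1

theorem dvd_one_of_add {q l : ℕ} (h1 : l ∣ q ^ 2 + q + 1) (h2 : l ∣ q + 1) : l ∣ 1 := by
  have h3 : q ^ 2 + q + 1 = (q + 1) * q + 1 := by ring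
  rw [h3] at h1
  exact (Nat.dvd_add_right (h2.mul_right _)).1 h1

theorem dvd_one_of_self {q l : ℕ} (h1 : l ∣ q ^ 2 + q + 1) (h2 : l ∣ q) : l ∣ 1 := by
  have h3 : q ^ 2 + q + 1 = q * (q + 1) + 1 := by ring
  rw [h3] at h1
  exact (Nat.dvd_add_right (h2.mul_right _)).1 h1

theorem not_nine {q : ℕ} : ¬ 9 ∣ q ^ 2 + q + 1 := by
  intro h
  have h1 : q % 9 < 9 := Nat.mod_lt _ (by norm_num)
  have h2 : (q ^ 2 + q + 1) % 9 = ((q % 9) ^ 2 + q % 9 + 1) % 9 := by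
    simp [Nat.add_mod, Nat.pow_mod]
  have h3 : (q ^ 2 + q + 1) % 9 = 0 := Nat.mod_eq_zero_of_dvd h
  rw [h2] at h3
  generalize q % 9 = t at h1 h3
  interval_cases t <;> omega

/-- a divisor `> 1` of a prime power is divisible by the prime -/
theorem dvd_of_dvd_pow {r M x : ℕ} (hr : r.Prime) (h : x ∣ r ^ M) (hx : x ≠ 1) : r ∣ x := by
  obtain ⟨k, -, rfl⟩ := (Nat.dvd_prime_pow hr).1 h
  rcases k with _ | k
  · exact absurd (pow_zero r) hx
  · exact dvd_pow_self r (by omega)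

/-- **The prime powers in `DT q`.** -/
theorem dt_prime_pow {r M p F : ℕ} (hr : r.Prime) (hM : M ≠ 0) (hp : p.Prime) (hF : F ≠ 0) (h3 : 3 ≤ p ^ F)
    (hs : r ^ M ∈ DT (p ^ F)) :
    (r = p ∧ M = 3 * F) ∨ r ^ M = (p ^ F) ^ 2 + p ^ F + 1 ∨ (p ^ F = 3 ∧ r ^ M = 16) := by
  have hpq : p ∣ p ^ F := dvd_pow_self p hF
  obtain ⟨q, hq⟩ : ∃ q, q = p ^ F := ⟨_, rfl⟩
  rw [← hq] at h3 hs hpq ⊢
  have hr1 := hr.one_lt
  have hone : ∀ l : ℕ, l.Prime → l ∣ 1 → False := fun l hl h => hl.one_lt.ne' (Nat.dvd_one.1 h)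
  have hrs : ∀ l : ℕ, l.Prime → l ∣ r ^ M → l = r := fun l hl h =>
    (Nat.prime_dvd_prime_iff_eq hl hr).1 (hl.dvd_of_dvd_pow h)
  rcases hs with h | h | h | h | h | ⟨-, h | h⟩ | ⟨-, h⟩ | ⟨h13, h | h⟩
  · have := Nat.one_lt_pow hM hr1
    omega
  · -- `q (q + 1)`
    exfalso
    have h1 : q ^ 2 + q = q * (q + 1) := by ring
    rw [h1] at h
    have h2 : p = r := hrs p hp (by rw [h]; exact hpq.mul_right _)
    have h4 : r ∣ q + 1 := dvd_of_dvd_pow hr (by rw [h]; exact Dvd.intro_left _ rfl) (by omega)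
    rw [← h2] at h4
    exact hone p hp ((Nat.dvd_add_right hpq).1 h4)
  · left
    have h2 : p = r := hrs p hp (by rw [h]; exact hpq.trans (dvd_pow_self q (by norm_num)))
    subst h2
    refine ⟨rfl, ?_⟩
    rw [hq, ← pow_mul] at h
    have := Nat.pow_right_injective hp.two_le h
    omega
  · exfalso
    have h1 := cube_sub q (by omega)
    have h2 : r ^ M = (q - 1) * (q ^ 2 + q + 1) := by omega
    have h4 : r ∣ q - 1 := dvd_of_dvd_pow hr (by rw [h2]; exact Dvd.intro _ rfl) (by omega)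
    have h5 : q ^ 2 + q + 1 ∣ r ^ M := by rw [h2]; exact Dvd.intro_left _ rfl
    have h6 : r ∣ q ^ 2 + q + 1 := dvd_of_dvd_pow hr h5 (by omega)
    have h7 : r = 3 := (Nat.prime_dvd_prime_iff_eq hr Nat.prime_three).1 (dvd_three (by omega) h6 h4)
    subst h7
    obtain ⟨k, -, hk⟩ := (Nat.dvd_prime_pow hr).1 h5
    rcases k with _ | _ | k
    · rw [pow_zero] at hk; omega
    · rw [zero_add, pow_one] at hk; nlinarith
    · apply not_nine (q := q)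
      rw [hk, show 3 ^ (k + 1 + 1) = 9 * 3 ^ k by rw [pow_succ, pow_succ]; ring]
      exact Dvd.intro _ rfl
  · right; right
    have h4 : r ∣ q - 1 := dvd_of_dvd_pow hr (x := q - 1) (by
      rw [h]; exact (Dvd.intro_left (q - 1) (by ring)).trans (Dvd.intro (q + 1) rfl)) (by omega)
    have h5' : q + 1 ∣ r ^ M := by rw [h]; exact Dvd.intro_left _ rfl
    have h5 : r ∣ q + 1 := dvd_of_dvd_pow hr h5' (by omega)
    have h6 : r ∣ 2 := by
      have := Nat.dvd_sub h5 h4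
      rwa [show q + 1 - (q - 1) = 2 by omega] at this
    have h7 : r = 2 := (Nat.prime_dvd_prime_iff_eq hr Nat.prime_two).1 h6
    subst h7
    have h8 : q - 1 ∣ 2 ^ M := by
      rw [h]; exact (Dvd.intro_left (q - 1) (by ring)).trans (Dvd.intro (q + 1) rfl)
    obtain ⟨a, -, ha⟩ := (Nat.dvd_prime_pow hr).1 h8
    obtain ⟨b, -, hb⟩ := (Nat.dvd_prime_pow hr).1 h5'
    have hq3 : q = 3 := by
      rcases a with _ | _ | a
      · rw [pow_zero] at ha; omega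
      · rw [zero_add, pow_one] at ha; omega
      · exfalso
        have ha' : q - 1 = 4 * 2 ^ a := by rw [ha, pow_succ, pow_succ]; ring
        rcases b with _ | _ | b
        · rw [pow_zero] at hb; omega
        · rw [zero_add, pow_one] at hb; omega
        · have hb' : q + 1 = 4 * 2 ^ b := by rw [hb, pow_succ, pow_succ]; ring
          omega
    rw [h, hq3]
    norm_num
  · exact Or.inr (Or.inl h)
  · exfalso
    have h2 : p = r := hrs p hp (by rw [h]; exact hpq.mul_right _)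
    have h6 : r ∣ q ^ 2 + q + 1 := dvd_of_dvd_pow hr (by rw [h]; exact Dvd.intro_left _ rfl) (by omega)
    exact hone r hr (dvd_one_of_self h6 (h2 ▸ hpq))
  · exfalso
    have h6 : r ∣ q ^ 2 + q + 1 := dvd_of_dvd_pow hr (by rw [h]; exact Dvd.intro_left _ rfl) (by omega)
    have h5 : r ∣ q + 1 := dvd_of_dvd_pow hr (by rw [h]; exact Dvd.intro _ rfl) (by omega)
    exact hone r hr (dvd_one_of_add h6 h5)
  · exfalso
    obtain ⟨b, hb⟩ := three_dvd_n h13 (by omega)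
    rw [hb] at h
    have h7 : r ^ M = (q + 1) * b := by
      have : 3 * r ^ M = 3 * ((q + 1) * b) := by rw [h]; ring
      omega
    have h6 : r ∣ b := dvd_of_dvd_pow hr (by rw [h7]; exact Dvd.intro_left _ rfl) (by
      rintro rfl
      nlinarith)
    have h5 : r ∣ q + 1 := dvd_of_dvd_pow hr (by rw [h7]; exact Dvd.intro _ rfl) (by omega)
    exact hone r hr (dvd_one_of_add (by rw [hb]; exact h6.mul_left 3) h5)
  · exfalso
    obtain ⟨a, ha⟩ := h13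
    have h7 : r ^ M = 3 * (a ^ 2 * (q + 1)) := by
      rw [ha] at h
      have : 3 * r ^ M = 3 * (3 * (a ^ 2 * (q + 1))) := by rw [h]; ring
      omega
    have h8 : 3 = r := hrs 3 Nat.prime_three (by rw [h7]; exact Dvd.intro _ rfl)
    have h5 : r ∣ q + 1 := dvd_of_dvd_pow hr (by rw [h7, ← mul_assoc]; exact Dvd.intro_left _ rfl) (by omega)
    rw [← h8] at h5
    omega

/-- The arithmetic condition excluding a group of Lie type. -/
def NF3 (s ord out : ℕ) : Prop :=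
  ∀ p F : ℕ, p.Prime → F ≠ 0 → 3 ≤ p ^ F → s ∈ DT (p ^ F) → p ∣ ord →
    (∀ l : ℕ, l.Prime → l ∣ ord → l ∣ 3 * (p ^ F * (((p ^ F) ^ 2 - 1) * ((p ^ F) ^ 3 - 1)))) →
    (p ^ F + 1 ∣ ord * out ∨ (p ^ F) ^ 2 + p ^ F + 1 ∣ out) →
    ((p ^ F) ^ 2 + p ^ F + 1 ∣ 3 * (ord * out) ∨ p ^ F + 1 ∣ out) → False

/-- The three cases. -/
theorem nf3_of {r M ord out : ℕ} (hr : r.Prime) (hM : M ≠ 0) (h16 : r ^ M ≠ 16)
    (hP : ∀ F : ℕ, M = 3 * F → F ≠ 0 → 3 ≤ r ^ F →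
      (∀ l : ℕ, l.Prime → l ∣ ord → l ∣ 3 * (r ^ F * (((r ^ F) ^ 2 - 1) * ((r ^ F) ^ 3 - 1)))) →
      (r ^ F + 1 ∣ ord * out ∨ (r ^ F) ^ 2 + r ^ F + 1 ∣ out) →
      ((r ^ F) ^ 2 + r ^ F + 1 ∣ 3 * (ord * out) ∨ r ^ F + 1 ∣ out) → False)
    (hN : ∀ p F : ℕ, p.Prime → F ≠ 0 → 3 ≤ p ^ F → p ∣ ord → r ^ M = (p ^ F) ^ 2 + p ^ F + 1 →
      (p ^ F + 1 ∣ ord * out ∨ (p ^ F) ^ 2 + p ^ F + 1 ∣ out) → False) : NF3 (r ^ M) ord out := by
  intro p F hp hF h3 hs hpo hIM h2 h1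
  rcases dt_prime_pow hr hM hp hF h3 hs with ⟨rfl, h⟩ | h | ⟨-, h⟩
  · exact hP F h hF h3 hIM h2 h1
  · exact hN p F hp hF h3 hpo h h2
  · exact h16 h

/-! ### the case `r ^ M = q² + q + 1` -/

/-- a square -/
theorem nsq {t q : ℕ} (hq : 1 ≤ q) : t ^ 2 ≠ q ^ 2 + q + 1 := by
  intro h
  have h1 : q < t := by
    by_contra hcon
    have : t ^ 2 ≤ q ^ 2 := Nat.pow_le_pow_left (by omega) 2
    omega
  have h2 : t < q + 1 := by
    by_contra hcon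
    have : (q + 1) ^ 2 ≤ t ^ 2 := Nat.pow_le_pow_left (by omega) 2
    nlinarith
  omega

theorem neven {t q : ℕ} (h2 : 2 ∣ t) : t ≠ q ^ 2 + q + 1 := by
  rintro rfl
  have h3 : 2 ∣ q * (q + 1) := (Nat.even_mul_succ_self q).two_dvd
  have h4 : q ^ 2 + q + 1 = q * (q + 1) + 1 := by ring
  rw [h4] at h2
  omega

/-- a primitive prime divisor -/
theorem nzd {r M ord out : ℕ} (hr : r.Prime) (hM : 3 ≤ M) (h6 : ¬ (r = 2 ∧ M = 6)) (hZ : Zd r M (ord * out))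
    (hpos : 0 < out) (hout : out < r ^ M) :
    ∀ p F : ℕ, p.Prime → F ≠ 0 → 3 ≤ p ^ F → p ∣ ord → r ^ M = (p ^ F) ^ 2 + p ^ F + 1 →
      (p ^ F + 1 ∣ ord * out ∨ (p ^ F) ^ 2 + p ^ F + 1 ∣ out) → False := by
  intro p F hp hF h3 hpo h h2
  obtain ⟨l, hl, hlp, hlM⟩ := exists_prim (r := r) (m := M) hr.two_le hM h6
  have h4 : l ∣ r ^ M - 1 := (hlp M).2 dvd_rfl
  rw [h, Nat.add_sub_cancel, show (p ^ F) ^ 2 + p ^ F = p ^ F * (p ^ F + 1) by ring] at h4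
  apply hZ l hl hlp
  rcases h2 with h2 | h2
  · rcases hl.dvd_mul.1 h4 with h5 | h5
    · have h6 : l = p := (Nat.prime_dvd_prime_iff_eq hl hp).1 (hl.dvd_of_dvd_pow h5)
      rw [h6]
      exact hpo.mul_right _
    · exact h5.trans h2
  · have := Nat.le_of_dvd hpos h2
    omega

/-! ### the case `r = p` -/

/-- by `n ∣ 3 |A|` -/
theorem pzd1 {r M ord out : ℕ} (hr : r.Prime) (hM : 3 ≤ M) (h6 : ¬ (r = 2 ∧ M = 6)) (hZ : Zd r M (ord * out))
    (hpos : 0 < out) {F : ℕ} (hMF : M = 3 * F) (hout : out ≤ r ^ F)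
    (h1 : (r ^ F) ^ 2 + r ^ F + 1 ∣ 3 * (ord * out) ∨ r ^ F + 1 ∣ out) : False := by
  rcases h1 with h1 | h1
  · obtain ⟨l, hl, hlp, hlM⟩ := exists_prim (r := r) (m := M) hr.two_le hM h6
    have h4 : l ∣ r ^ M - 1 := (hlp M).2 dvd_rfl
    have hq1 : 1 ≤ r ^ F := Nat.one_le_pow _ _ hr.pos
    have h5 := cube_sub (r ^ F) hq1
    rw [hMF, mul_comm 3 F, pow_mul, ← h5, Nat.add_sub_cancel] at h4
    have h7 : ¬ l ∣ r ^ F - 1 := by
      rw [hlp]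
      intro h8
      have := Nat.le_of_dvd (by omega) h8
      omega
    have h8 : l ∣ (r ^ F) ^ 2 + r ^ F + 1 := (hl.dvd_mul.1 h4).resolve_left h7
    rcases hl.dvd_mul.1 (h8.trans h1) with h9 | h9
    · have := Nat.le_of_dvd (by norm_num) h9
      omega
    · exact hZ l hl hlp h9
  · have := Nat.le_of_dvd hpos h1
    omega

/-- by `q + 1 ∣ |A|` -/
theorem pzd2 {r ord out F : ℕ} (hr : r.Prime) (hF : 2 ≤ F) (h6 : ¬ (r = 2 ∧ 2 * F = 6))
    (hZ : Zd r (2 * F) (ord * out)) (hpos : 0 < out) (hout : out ≤ (r ^ F) ^ 2)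
    (h2 : r ^ F + 1 ∣ ord * out ∨ (r ^ F) ^ 2 + r ^ F + 1 ∣ out) : False := by
  rcases h2 with h2 | h2
  · obtain ⟨l, hl, hlp, hlM⟩ := exists_prim (r := r) (m := 2 * F) hr.two_le (by omega) h6
    have h4 : l ∣ r ^ (2 * F) - 1 := (hlp _).2 dvd_rfl
    rw [mul_comm, pow_mul] at h4
    have h5 := Nat.sq_sub_sq (r ^ F) 1
    rw [one_pow] at h5
    rw [h5] at h4
    rcases hl.dvd_mul.1 h4 with h7 | h7
    · exact hZ l hl hlp (h7.trans h2)
    · rw [hlp] at h7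
      have := Nat.le_of_dvd (by omega) h7
      omega
  · have := Nat.le_of_dvd hpos h2
    omega

/-- by Itô-Michler -/
theorem pim {r ord K F : ℕ} (hr : r.Prime) (hK : 3 ≤ K) (h6 : ¬ (r = 2 ∧ K = 6))
    (hK2 : ¬ K ∣ 2 * F) (hK3 : ¬ K ∣ 3 * F)
    (hKo : ∀ l : ℕ, l.Prime → K < l → (∀ k, l ∣ r ^ k - 1 ↔ K ∣ k) → l ∣ ord)
    (hIM : ∀ l : ℕ, l.Prime → l ∣ ord → l ∣ 3 * (r ^ F * (((r ^ F) ^ 2 - 1) * ((r ^ F) ^ 3 - 1)))) : False := by
  obtain ⟨l, hl, hlp, hlM⟩ := exists_prim (r := r) (m := K) hr.two_le hK h6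
  rcases hl.dvd_mul.1 (hIM l hl (hKo l hl hlM hlp)) with h | h
  · have := Nat.le_of_dvd (by norm_num) h
    omega
  rcases hl.dvd_mul.1 h with h | h
  · have h2 : l ∣ r := hl.dvd_of_dvd_pow h
    have h3 : l ∣ r ^ K - 1 := (hlp _).2 dvd_rfl
    have h4 : l ∣ r ^ K := dvd_pow h2 (by omega)
    have h5 : 1 ≤ r ^ K := Nat.one_le_pow _ _ hr.one_le
    have h6 := Nat.dvd_sub h4 h3
    rw [show r ^ K - (r ^ K - 1) = 1 by omega] at h6
    exact hl.one_lt.ne' (Nat.dvd_one.1 h6)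
  rcases hl.dvd_mul.1 h with h | h
  · rw [← pow_mul, hlp, mul_comm] at h
    exact hK2 h
  · rw [← pow_mul, hlp, mul_comm] at h
    exact hK3 h

/-- no primitive prime divisor with exponent `m`, from `PD` -/
theorem zd_of_pd' {r0 f m K x : ℕ} {Lp Lm : ℕ → Prop} (hr0 : 1 ≤ r0) (hf : f ≤ m) (hm3 : 3 ≤ m)
    (h : PD (r0 ^ f) f Lp Lm x) (hcan : ∀ c, m ∣ f * c → K ∣ c)
    (hcan2 : ∀ c, K ∣ c → m ∣ f * c) (hp : ∀ c, Lp c → ¬ K ∣ c)
    (hm : ∀ c, Lm c → ¬ (K ∣ 2 * c ∧ ¬ K ∣ c)) :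
    Zd r0 m x := by
  intro l hl hlp hlx
  have hlM := lt_of_prim hl hlp hr0 (by omega)
  rcases h l hl hlx with h1 | h1 | h1 | ⟨c, hc, h1⟩ | ⟨c, hc, h1⟩
  · omega
  · omega
  · have h2 : l ∣ r0 := hl.dvd_of_dvd_pow h1
    have h3 : l ∣ r0 ^ m - 1 := (hlp _).2 dvd_rfl
    have h4 : l ∣ r0 ^ m := dvd_pow h2 (by omega)
    have h5 : 1 ≤ r0 ^ m := Nat.one_le_pow _ _ hr0
    have h6 := Nat.dvd_sub h4 h3
    rw [show r0 ^ m - (r0 ^ m - 1) = 1 by omega] at h6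
    exact hl.one_lt.ne' (Nat.dvd_one.1 h6)
  · rw [← pow_mul, hlp] at h1
    exact hp c hc (hcan c h1)
  · rw [← pow_mul] at h1
    have h2 : l ∣ r0 ^ (f * c + f * c) - 1 := by
      have h3 : r0 ^ (f * c + f * c) - 1 = (r0 ^ (f * c) + 1) * (r0 ^ (f * c) - 1) := by
        rw [pow_add]
        have := Nat.sq_sub_sq (r0 ^ (f * c)) 1
        rw [one_pow, pow_two] at this
        exact this
      rw [h3]
      exact h1.mul_right _
    rw [hlp, ← two_mul, mul_left_comm] at h2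
    refine hm c hc ⟨hcan _ h2, fun h3 => ?_⟩
    have h4 : l ∣ r0 ^ (f * c) - 1 := (hlp _).2 (hcan2 c h3)
    have h5 := Nat.dvd_sub h1 h4
    have h6 : 1 ≤ r0 ^ (f * c) := Nat.one_le_pow _ _ hr0
    rw [show r0 ^ (f * c) + 1 - (r0 ^ (f * c) - 1) = 2 by omega] at h5
    have := Nat.le_of_dvd (by norm_num) h5
    omega

end Cfsg.Agent.H691.T3
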