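import Cfsg.Agent.H691.T3.Defs
import Cfsg.Agent.H691.Types
import Cfsg.Agent.H424.CentBound
import Cfsg.Agent.H672.Over

/-!
# Almost simple groups whose degrees lie in `DT q` (helper691)

* `types3` : `q + 1` and (up to `3`) `q² + q + 1` divide the order;
* `gc` : elements with small centralisers bound the order of the socle.
-/

set_option autoImplicit false

namespace Cfsg.Agent.H691.T3

open Cfsg Cfsg.Agent.H681

universe u

/-- If all the degrees different from `1` and the powers of `p` are divisible by `m`, then `m` divides `|A : S|`. -/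
theorem dvd_index {A : Type u} [Group A] [Finite A] {S : Subgroup A} (h : AS A S) {p : ℕ} (hp : p.Prime)
    (hpS : p ∣ Nat.card S) {m : ℕ} (hm : ∀ d ∈ charDegrees A, d = 1 ∨ (∃ k, d = p ^ k) ∨ m ∣ d) : m ∣ S.index := by
  have h1 : 2 * m ∣ 2 * S.index := by
    apply h.dvd_two_index hp hpS
    intro d hd
    rcases hm d hd with h1 | h1 | h1
    · exact Or.inl h1
    · exact Or.inr (Or.inl h1)
    · exact Or.inr (Or.inr (Nat.mul_dvd_mul_left 2 h1))
  exact Nat.dvd_of_mul_dvd_mul_left (by norm_num) h1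

theorem cube_sub (q : ℕ) (hq : 1 ≤ q) : (q - 1) * (q ^ 2 + q + 1) + 1 = q ^ 3 := by
  obtain ⟨a, rfl⟩ : ∃ a, q = a + 1 := ⟨q - 1, by omega⟩
  rw [Nat.add_sub_cancel]
  ring

theorem three_dvd_n {q : ℕ} (h : 3 ∣ q - 1) (hq : 1 ≤ q) : 3 ∣ q ^ 2 + q + 1 := by
  obtain ⟨a, ha⟩ := h
  obtain rfl : q = 3 * a + 1 := by omega
  exact ⟨3 * a ^ 2 + 3 * a + 1, by ring⟩

/-- The elements of `DT q` which are not powers of `q` are divisible by `q + 1`, or by `n = q² + q + 1`. -/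
theorem dt_cases {q : ℕ} (hq : 1 ≤ q) {d : ℕ} (h : d ∈ DT q) :
    d = 1 ∨ d = q ^ 3 ∨ (q + 1 ∣ d ∧ (d = q ^ 2 + q ∨ d = (q - 1) ^ 2 * (q + 1) ∨ 3 * d = (q - 1) ^ 2 * (q + 1))) ∨
      (q + 1 ∣ d ∧ (d = (q + 1) * (q ^ 2 + q + 1) ∨ 3 * d = (q + 1) * (q ^ 2 + q + 1))) ∨
      (q ^ 2 + q + 1 ∣ d ∧ (d + 1 = q ^ 3 ∨ d = q ^ 2 + q + 1 ∨ d = q * (q ^ 2 + q + 1))) := by
  rcases h with h | h | h | h | h | ⟨-, h | h⟩ | ⟨-, h⟩ | ⟨h3, h | h⟩
  · exact Or.inl h
  · exact Or.inr (Or.inr (Or.inl ⟨⟨q, by rw [h]; ring⟩, Or.inl h⟩))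
  · exact Or.inr (Or.inl h)
  · refine Or.inr (Or.inr (Or.inr (Or.inr ⟨⟨q - 1, ?_⟩, Or.inl h⟩)))
    have := cube_sub q hq
    rw [mul_comm]
    omega
  · exact Or.inr (Or.inr (Or.inl ⟨⟨(q - 1) ^ 2, by rw [h]; ring⟩, Or.inr (Or.inl h)⟩))
  · exact Or.inr (Or.inr (Or.inr (Or.inr ⟨by rw [h], Or.inr (Or.inl h)⟩)))
  · exact Or.inr (Or.inr (Or.inr (Or.inr ⟨⟨q, by rw [h]; ring⟩, Or.inr (Or.inr h)⟩)))
  · exact Or.inr (Or.inr (Or.inr (Or.inl ⟨⟨q ^ 2 + q + 1, by rw [h]⟩, Or.inl h⟩)))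
  · refine Or.inr (Or.inr (Or.inr (Or.inl ⟨?_, Or.inr h⟩)))
    obtain ⟨b, hb⟩ := three_dvd_n h3 hq
    refine ⟨b, ?_⟩
    rw [hb] at h
    have : 3 * d = 3 * ((q + 1) * b) := by rw [h]; ring
    omega
  · refine Or.inr (Or.inr (Or.inl ⟨?_, Or.inr (Or.inr h)⟩))
    obtain ⟨a, ha⟩ := h3
    refine ⟨3 * a ^ 2, ?_⟩
    rw [ha] at h
    have : 3 * d = 3 * ((q + 1) * (3 * a ^ 2)) := by rw [h]; ring
    omega

/-- **Both types of degrees occur.** -/
theorem types3 {A : Type*} [Group A] [Finite A] {S : Subgroup A} (h : AS A S) {p F : ℕ} (hp : p.Prime)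
    (_hF : F ≠ 0) (h3 : 3 ≤ p ^ F) (hpS : p ∣ Nat.card S) (hD : charDegrees A ⊆ DT (p ^ F))
    (hout : S.index ≤ p ^ F) :
    p ^ F + 1 ∣ Nat.card A ∧ (p ^ F) ^ 2 + p ^ F + 1 ∣ 3 * Nat.card A := by
  have hpos : 0 < S.index := Nat.pos_of_ne_zero Subgroup.index_ne_zero_of_finite
  constructor
  · by_contra hcon
    have h1 : (p ^ F) ^ 2 + p ^ F + 1 ∣ S.index := by
      apply dvd_index h hp hpS
      intro d hd
      have hdA := DegBasic.dvd_card hd
      rcases dt_cases (by omega) (hD hd) with h2 | h2 | h2 | h2 | h2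
      · exact Or.inl h2
      · exact Or.inr (Or.inl ⟨F * 3, by rw [h2, pow_mul]⟩)
      · exact absurd (h2.1.trans hdA) hcon
      · exact absurd (h2.1.trans hdA) hcon
      · exact Or.inr (Or.inr h2.1)
    have := Nat.le_of_dvd hpos h1
    omega
  · by_contra hcon
    have h1 : p ^ F + 1 ∣ S.index := by
      apply dvd_index h hp hpS
      intro d hd
      have hdA := DegBasic.dvd_card hd
      rcases dt_cases (by omega) (hD hd) with h2 | h2 | h2 | h2 | h2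
      · exact Or.inl h2
      · exact Or.inr (Or.inl ⟨F * 3, by rw [h2, pow_mul]⟩)
      · exact Or.inr (Or.inr h2.1)
      · exact Or.inr (Or.inr h2.1)
      · exact absurd ((h2.1.trans hdA).mul_left 3) hcon
    have := Nat.le_of_dvd hpos h1
    omega

/-- Every degree of `S` divides a degree of `A`. -/
theorem exists_mult {A : Type u} [Group A] [Finite A] {S : Subgroup A} [S.Normal] {d : ℕ} (hd : d ∈ charDegrees S) :
    ∃ x ∈ charDegrees A, d ∣ x ∧ x / d ∣ S.index := by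
  obtain ⟨θ, rfl⟩ := hd
  obtain ⟨χ, hχ, ho⟩ := H672.exists_over_subtype S θ.2
  obtain ⟨h1, h2⟩ := H672.charDegree_dvd_of_over S hχ θ.2 ho
  exact ⟨_, ⟨⟨χ, hχ⟩, rfl⟩, h1, h2⟩

/-- The counting lemma, for a group. -/
theorem gc_core {S : Type*} [Group S] [Finite S] {M : ℕ} (hM : ∀ d ∈ charDegrees S, d ≤ M) (X : List (ℕ × ℕ))
    (hX : ∀ x ∈ X, x.1.Prime ∧ CB S x.1 x.2) (hno : ∀ d ∈ charDegrees S, ∃ x ∈ X, ¬ x.1 ∣ d) :
    Nat.card S ≤ (X.map Prod.snd).sum * M ^ 2 := by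
  classical
  have := Cfsg.Agent.Characters.Core.finite_irr (G := S)
  have := Fintype.ofFinite (IrrCharacter S)
  have key : ∀ L : List (ℕ × ℕ), (∀ x ∈ L, x.1.Prime ∧ CB S x.1 x.2) →
      (Finset.univ.filter (fun χ : IrrCharacter S => ∃ x ∈ L, ¬ x.1 ∣ charDegree (χ : S → ℂ))).card ≤
        (L.map Prod.snd).sum := by
    intro L
    induction L with
    | nil => intro _; simp
    | cons y L ih =>
      intro hL
      have h1 := ih fun x hx => hL x (List.mem_cons_of_mem _ hx)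
      obtain ⟨hy, x, ⟨a, ha⟩, hc⟩ := hL y List.mem_cons_self
      have := Fact.mk hy
      set P : Finset (IrrCharacter S) := Finset.univ.filter (fun χ : IrrCharacter S => ¬ y.1 ∣ charDegree (χ : S → ℂ))
      have hP : P.card ≤ Nat.card (Subgroup.centralizer ({x} : Set S)) :=
        H424.CentBound.card_le_centralizer ha P (fun χ hχ => (Finset.mem_filter.1 hχ).2)
      rw [List.map_cons, List.sum_cons]
      refine le_trans (Finset.card_le_card (t := P ∪ Finset.univ.filter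
        (fun χ : IrrCharacter S => ∃ x ∈ L, ¬ x.1 ∣ charDegree (χ : S → ℂ))) ?_) ?_
      · intro χ hχ
        obtain ⟨x, hx, hx'⟩ := (Finset.mem_filter.1 hχ).2
        rw [Finset.mem_union]
        rcases List.mem_cons.1 hx with rfl | hx
        · exact Or.inl (Finset.mem_filter.2 ⟨Finset.mem_univ _, hx'⟩)
        · exact Or.inr (Finset.mem_filter.2 ⟨Finset.mem_univ _, x, hx, hx'⟩)
      · refine (Finset.card_union_le _ _).trans ?_
        omega
  have h1 := key X hX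
  have h2 : (Finset.univ.filter (fun χ : IrrCharacter S => ∃ x ∈ X, ¬ x.1 ∣ charDegree (χ : S → ℂ))) =
      Finset.univ := by
    rw [Finset.filter_eq_self]
    intro χ _
    exact hno _ ⟨χ, rfl⟩
  rw [h2, Finset.card_univ] at h1
  have h3 := H686.CharKit.sum_deg_sq (G := S)
  have h4 : ∑ χ : IrrCharacter S, charDegree (χ : S → ℂ) ^ 2 ≤ ∑ _χ : IrrCharacter S, M ^ 2 :=
    Finset.sum_le_sum fun χ _ => Nat.pow_le_pow_left (hM _ ⟨χ, rfl⟩) 2
  rw [h3, Finset.sum_const, Finset.card_univ, smul_eq_mul] at h4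
  exact h4.trans (Nat.mul_le_mul_right _ h1)

/-- **The counting lemma**. -/
theorem gc {A : Type*} [Group A] [Finite A] {S : Subgroup A} (h : AS A S) {q M : ℕ}
    (hD : charDegrees A ⊆ DT q) (hM : ∀ d ∈ DT q, d ≤ M) (X : List (ℕ × ℕ))
    (hX : ∀ x ∈ X, x.1.Prime ∧ CB S x.1 x.2) (hno : ∀ d ∈ DT q, ∃ x ∈ X, ¬ x.1 ∣ d) :
    Nat.card S ≤ (X.map Prod.snd).sum * M ^ 2 := by
  have := h.normal
  refine gc_core ?_ X hX ?_
  · intro d hd
    obtain ⟨x, hx, hdx, -⟩ := exists_mult (A := A) hd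
    have hx0 : 0 < x := Nat.pos_of_dvd_of_pos (DegBasic.dvd_card hx) Nat.card_pos
    exact (Nat.le_of_dvd hx0 hdx).trans (hM x (hD hx))
  · intro d hd
    obtain ⟨x, hx, hdx, -⟩ := exists_mult (A := A) hd
    obtain ⟨y, hy, hy'⟩ := hno x (hD hx)
    exact ⟨y, hy, fun h0 => hy' (h0.trans hdx)⟩

/-- The largest element of `DT q`, `q ≥ 5`. -/
theorem dt_le {q : ℕ} (hq : 2 ≤ q) {d : ℕ} (h : d ∈ DT q) : d ≤ (q + 1) * (q ^ 2 + q + 1) := by
  have hc := cube_sub q (by omega)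
  have h1 : (q - 1) * (q ^ 2 + q + 1) ≤ (q + 1) * (q ^ 2 + q + 1) := Nat.mul_le_mul_right _ (by omega)
  have h2 : (q - 1) ^ 2 * (q + 1) ≤ (q + 1) * (q ^ 2 + q + 1) := by
    rw [mul_comm]
    apply Nat.mul_le_mul_left
    have : (q - 1) ^ 2 ≤ q ^ 2 := Nat.pow_le_pow_left (by omega) 2
    omega
  have h3 : q ^ 3 ≤ (q + 1) * (q ^ 2 + q + 1) := by nlinarith
  rcases h with h | h | h | h | h | ⟨-, h | h⟩ | ⟨-, h⟩ | ⟨h3, h | h⟩ <;> nlinarith

end Cfsg.Agent.H691.T3
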